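import Mathlib.Analysis.Complex.Basic
import Mathlib.Tactic.FieldSimp
import Mathlib.Tactic.LinearCombination

/-!
The algebra behind the recognition of `N_{Alt(9)}(3³)`: the vanishing class sums leave only the
values of that group.
-/

set_option autoImplicit false

namespace Cfsg.Agent.AltNine

/-- The reduced system in normalised coordinates. -/
theorem core {P Q R c s : ℂ} (hP : P ≠ 0) (hQ : Q ≠ 0) (hR : R ≠ 0) (hX : 1 + Q + R ≠ 0)
    (hY : 1 + Q + R + 2 * P ≠ 0) (hV : Q + P + R ≠ 0) (hM : P + R ≠ 0) (hP3 : 3 * P ≠ 1)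
    (hG : 1 + c ^ 2 / (Q + P + R) = (c - 1) ^ 2 / (1 + Q + R))
    (hC : s ^ 2 - 1 / R - 2 / P - (s + 1) ^ 2 / (1 + Q + R) = 0)
    (hD : 2 * (s ^ 2 + 1 / P - (s - 1) ^ 2 / (1 + Q + R + 2 * P)) - 3 * (1 / P + 1 / R) = 0)
    (hA : -s + (c - 1) * ((s + 1) / (1 + Q + R) - 2 * (s - 1) / (1 + Q + R + 2 * P)) = 0)
    (hF : c ^ 2 / Q - c ^ 2 / (Q + P + R) =
      2 * (c - 1) ^ 2 * (1 / (1 + Q + R) - 1 / (1 + Q + R + 2 * P))) :
    c + Q = 0 := by
  obtain ⟨x, hx⟩ : ∃ x : ℂ, x = 1 + Q + R := ⟨_, rfl⟩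
  obtain ⟨e, rfl⟩ : ∃ e : ℂ, c = 1 + e := ⟨c - 1, by ring⟩
  have hVx : Q + P + R = x - 1 + P := by rw [hx]; ring
  rw [← hx] at hG hC hD hA hF hX hY
  rw [hVx] at hG hF hV
  simp only [add_sub_cancel_left] at hG hA hF
  have hY' : x + P * 2 ≠ 0 := by rwa [mul_comm] at hY
  field_simp at hG hC hD hA hF
  have hE : x ^ 2 * (P * s ^ 2 - 5) + x * P * (2 * P * s ^ 2 - s ^ 2 - 10 * s - 11) -
      6 * P ^ 2 * (s + 1) ^ 2 = 0 := by
    refine (mul_eq_zero.mp (?_ : R * _ = 0)).resolve_left hR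
    linear_combination 3 * (x + 2 * P) * hC - x * hD
  set N := (3 - s) * x + 2 * P * (s + 1) with hN
  have hE2 : e * N = s * x * (x + 2 * P) := by
    rw [hN]; linear_combination hA
  have hG2 : (1 - P) * e ^ 2 + 2 * x * e + x * (x + P) = 0 := by linear_combination hG
  have hG3 : (1 - P) * s ^ 2 * x * (x + 2 * P) ^ 2 + 2 * s * x * (x + 2 * P) * N +
      (x + P) * N ^ 2 = 0 := by
    refine (mul_eq_zero.mp (?_ : x * _ = 0)).resolve_left hX
    linear_combination N ^ 2 * hG2 -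
      ((1 - P) * (e * N + s * x * (x + 2 * P)) + 2 * x * N) * hE2
  have hprod : (x - 2 * P) * ((9 - P * s ^ 2) * x ^ 2 +
      P * (19 + 18 * s + s ^ 2 - 2 * P * s ^ 2) * x + 10 * P ^ 2 * (s + 1) ^ 2) = 0 := by
    rw [hN] at hG3
    linear_combination hG3 + 4 * P * hE
  rcases mul_eq_zero.mp hprod with h2P | hquad
  swap
  · exfalso
    have hxs : x = -(P * (s + 1)) := by
      have h : (x + P * (s + 1)) ^ 2 = 0 := by linear_combination (hquad + hE) / 4
      linear_combination pow_eq_zero_iff (n := 2) (by norm_num) |>.mp h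
    have h0 : P ^ 2 * ((s + 1) * (s * ((s - 1) * (P * s + 1)))) = 0 := by
      rw [hxs] at hE
      linear_combination hE
    rcases mul_eq_zero.mp h0 with h | h
    · exact pow_ne_zero 2 hP h
    rcases mul_eq_zero.mp h with h | h
    · exact hX (by rw [hxs, h]; ring)
    rcases mul_eq_zero.mp h with h | h
    · -- `e = 0`, so the sum of two degrees vanishes
      have he : e = 0 := by
        refine (mul_eq_zero.mp (?_ : e * (-P) = 0)).resolve_right (neg_ne_zero.mpr hP)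
        rw [h, hxs] at hN
        rw [hN, h] at hE2
        linear_combination hE2
      subst he
      have h' : (P + R) * (x * (x + 2 * P)) = 0 := by
        linear_combination hF + (x * (x + 2 * P)) * hVx
      exact hM ((mul_eq_zero.mp h').resolve_right (mul_ne_zero hX hY))
    rcases mul_eq_zero.mp h with h | h
    · exact hY (by rw [hxs]; linear_combination -P * h)
    · exact hV (by rw [hxs]; linear_combination -h)
  have hx2 : x = 2 * P := by linear_combination h2P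
  subst hx2
  have hK : (P - 1) * s ^ 2 - 4 * s - 6 = 0 := by
    refine (mul_eq_zero.mp (?_ : 8 * P ^ 2 * _ = 0)).resolve_left (by simp [hP])
    linear_combination hE
  have hs : s ≠ 0 := by rintro rfl; norm_num at hK
  have he : e = s * P := by
    refine mul_left_cancel₀ (show 8 * P ≠ 0 by simp [hP]) ?_
    rw [hN] at hE2
    linear_combination hE2
  subst he
  have hu : R * (s ^ 2 + 6 * s + 7) = 2 * P := by
    refine mul_left_cancel₀ hP ?_
    linear_combination hC - 2 * P * R * hK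
  have hu0 : s ^ 2 + 6 * s + 7 ≠ 0 := fun h => hP (by linear_combination (R * h - hu) / 2)
  have hQx : Q = 2 * P - 1 - R := by linear_combination -hx
  subst hQx
  have h8 : 2 * (1 + s * P) ^ 2 * (s ^ 2 + 6 * s + 7 + 2) -
      s ^ 2 * (3 * P - 1) * ((2 * P - 1) * (s ^ 2 + 6 * s + 7) - 2 * P) = 0 := by
    refine (mul_eq_zero.mp (?_ : 4 * P ^ 3 * _ = 0)).resolve_left (by simp [hP])
    linear_combination (s ^ 2 + 6 * s + 7) * hF +
      (-(8 * P ^ 2 * (1 + s * P) ^ 2) - 4 * P ^ 3 * s ^ 2 * (3 * P - 1)) * hu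
  have hP' : P = (s ^ 2 + 4 * s + 6) / s ^ 2 := by
    field_simp
    linear_combination hK
  have hkey : (s + 1) * ((s + 3) ^ 2) ^ 2 = 0 := by
    rw [hP'] at h8
    field_simp at h8
    refine (mul_eq_zero.mp (?_ : s ^ 2 * _ = 0)).resolve_left (pow_ne_zero 2 hs)
    linear_combination -(s ^ 2) / 8 * h8
  rcases mul_eq_zero.mp hkey with h | h
  · have hs1 : s = -1 := by linear_combination h
    subst hs1
    have hP3' : P = 3 := by linear_combination hK
    subst hP3'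
    linear_combination (-1 / 2 : ℂ) * hu
  · exfalso
    have hs3 : s = -3 := by
      linear_combination pow_eq_zero_iff (n := 2) (by norm_num) |>.mp
        (pow_eq_zero_iff (n := 2) (by norm_num) |>.mp h)
    subst hs3
    exact hP3 (by linear_combination hK / 3)

theorem solve {P Q R : ℤ} {x2 x3 x4 y2 y3 y4 : ℂ} (hP : P ≠ 0) (hQ : Q ≠ 0) (hR : R ≠ 0)
    (hX : 1 + Q + R ≠ 0) (hY : 1 + Q + 2 * P + R ≠ 0) (hV : Q + P + R ≠ 0) (hM : P + R ≠ 0)
    (h1 : x3 * x3 / (P : ℂ) + x4 * x4 / R - (x3 + x4) * (x3 + x4) / (P + R) = 0)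
    (h2 : y2 * y2 / (Q : ℂ) + (y3 + y4) * (y3 + y4) / (P + R) -
      (y2 + y3 + y4) * (y2 + y3 + y4) / (Q + P + R) = 0)
    (hG : (1 + x2 * x2 / (Q : ℂ) + x4 * x4 / R - (1 + x2 + x4) * (1 + x2 + x4) / (1 + Q + R)) -
      (x2 * x2 / (Q : ℂ) + (x3 + x4) * (x3 + x4) / (P + R) -
        (x2 + x3 + x4) * (x2 + x3 + x4) / (Q + P + R)) = 0)
    (hF : (x2 * x2 / (Q : ℂ) + (x3 + x4) * (x3 + x4) / (P + R) -
        (x2 + x3 + x4) * (x2 + x3 + x4) / (Q + P + R)) -
      2 * (1 + x2 * x2 / (Q : ℂ) + x4 * x4 / R - (1 + x2 + x4) * (1 + x2 + x4) / (1 + Q + R)) +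
      2 * (1 + x3 * x3 / (P : ℂ) + (x2 + x3 + x4) * (x2 + x3 + x4) / (Q + P + R) -
        (1 + x2 + 2 * x3 + x4) * (1 + x2 + 2 * x3 + x4) / (1 + Q + 2 * P + R)) = 0)
    (hC : (1 + y2 * y2 / (Q : ℂ) + y4 * y4 / R - (1 + y2 + y4) * (1 + y2 + y4) / (1 + Q + R)) -
      2 * (y3 * y3 / (P : ℂ) + y4 * y4 / R - (y3 + y4) * (y3 + y4) / (P + R)) = 0)
    (hD : 2 * (1 + y3 * y3 / (P : ℂ) + (y2 + y3 + y4) * (y2 + y3 + y4) / (Q + P + R) -
        (1 + y2 + 2 * y3 + y4) * (1 + y2 + 2 * y3 + y4) / (1 + Q + 2 * P + R)) -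
      3 * (y3 * y3 / (P : ℂ) + y4 * y4 / R - (y3 + y4) * (y3 + y4) / (P + R)) = 0)
    (hA : (1 + x2 * y2 / (Q : ℂ) + x4 * y4 / R - (1 + x2 + x4) * (1 + y2 + y4) / (1 + Q + R)) -
      2 * (1 + x3 * y3 / (P : ℂ) + (x2 + x3 + x4) * (y2 + y3 + y4) / (Q + P + R) -
        (1 + x2 + 2 * x3 + x4) * (1 + y2 + 2 * y3 + y4) / (1 + Q + 2 * P + R)) = 0) :
    x2 = Q ∨ y2 = Q := by
  have hP' : (P : ℂ) ≠ 0 := by exact_mod_cast hP
  have hQ' : (Q : ℂ) ≠ 0 := by exact_mod_cast hQ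
  have hR' : (R : ℂ) ≠ 0 := by exact_mod_cast hR
  have hX' : (1 : ℂ) + Q + R ≠ 0 := by exact_mod_cast hX
  have hY' : (1 : ℂ) + Q + R + 2 * P ≠ 0 := by
    intro h
    exact hY (by exact_mod_cast (show ((1 : ℂ) + Q + 2 * P + R) = 0 by linear_combination h))
  have hV' : (Q : ℂ) + P + R ≠ 0 := by exact_mod_cast hV
  have hM' : (P : ℂ) + R ≠ 0 := by exact_mod_cast hM
  have hP3 : (3 : ℂ) * P ≠ 1 := by
    intro h
    have : (3 : ℤ) * P = 1 := by exact_mod_cast h
    omega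
  -- the ratios
  obtain ⟨τ, rfl⟩ : ∃ τ, x3 = τ * P := ⟨x3 / P, by field_simp⟩
  have hx4 : x4 = τ * R := by
    field_simp at h1
    have : (x4 - τ * R) ^ 2 = 0 := by
      refine (mul_eq_zero.mp (?_ : (P : ℂ) ^ 2 * _ = 0)).resolve_left (pow_ne_zero 2 hP')
      linear_combination (P : ℂ) * h1
    exact sub_eq_zero.mp (pow_eq_zero_iff (n := 2) (by norm_num) |>.mp this)
  subst hx4
  obtain ⟨σ, rfl⟩ : ∃ σ, y2 = σ * Q := ⟨y2 / Q, by field_simp⟩
  obtain ⟨p, rfl⟩ : ∃ p, y3 = σ * P + p := ⟨y3 - σ * P, by ring⟩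
  have hy4 : y4 = σ * R - p := by
    field_simp at h2
    have : (y4 - σ * R + p) ^ 2 = 0 := by
      refine (mul_eq_zero.mp (?_ : (Q : ℂ) ^ 2 * _ = 0)).resolve_left (pow_ne_zero 2 hQ')
      linear_combination (Q : ℂ) * h2
    linear_combination pow_eq_zero_iff (n := 2) (by norm_num) |>.mp this
  subst hy4
  obtain ⟨t, rfl⟩ : ∃ t, τ = 1 + t := ⟨τ - 1, by ring⟩
  obtain ⟨s, rfl⟩ : ∃ s, σ = 1 + s := ⟨σ - 1, by ring⟩
  obtain ⟨a, rfl⟩ : ∃ a, x2 = (1 + t) * Q + a := ⟨x2 - (1 + t) * Q, by ring⟩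
  -- the equations in the new coordinates
  have L : ∀ u v α β D : ℂ, D ≠ 0 →
      (u * D + α) * (v * D + β) / D = u * v * D + u * β + v * α + α * β / D := by
    intro u v α β D hD; field_simp; ring
  have hY'' : (1 : ℂ) + Q + 2 * P + R = 1 + Q + R + 2 * P := by ring
  have e5 : (1 : ℂ) + ((1 + t) * Q + a) + (1 + t) * R = (1 + t) * (1 + Q + R) + (a - t) := by ring
  have e9 : (1 : ℂ) + ((1 + t) * Q + a) + 2 * ((1 + t) * P) + (1 + t) * R =
      (1 + t) * (1 + Q + R + 2 * P) + (a - t) := by ring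
  have e12 : (1 + t) * Q + a + (1 + t) * P + (1 + t) * R = (1 + t) * ((Q : ℂ) + P + R) + a := by
    ring
  have e6 : (1 + t) * P + (1 + t) * R = (1 + t) * ((P : ℂ) + R) + 0 := by ring
  have f2 : (1 + t) * (Q : ℂ) + a = (1 + t) * Q + a := rfl
  have f3 : (1 + t) * (P : ℂ) = (1 + t) * P + 0 := (add_zero _).symm
  have f4 : (1 + t) * (R : ℂ) = (1 + t) * R + 0 := (add_zero _).symm
  have g5 : (1 : ℂ) + (1 + s) * Q + ((1 + s) * R - p) =
      (1 + s) * (1 + Q + R) + (-s - p) := by ring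
  have g9 : (1 : ℂ) + (1 + s) * Q + 2 * ((1 + s) * P + p) + ((1 + s) * R - p) =
      (1 + s) * (1 + Q + R + 2 * P) + (p - s) := by ring
  have g12 : (1 + s) * Q + ((1 + s) * P + p) + ((1 + s) * R - p) =
      (1 + s) * ((Q : ℂ) + P + R) + 0 := by ring
  have g6 : (1 + s) * P + p + ((1 + s) * R - p) = (1 + s) * ((P : ℂ) + R) + 0 := by ring
  have g2 : (1 + s) * (Q : ℂ) = (1 + s) * Q + 0 := (add_zero _).symm
  have g4 : (1 + s) * (R : ℂ) - p = (1 + s) * R + -p := sub_eq_add_neg _ _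
  have eG : t ^ 2 + a ^ 2 / (Q + P + R) - (a - t) ^ 2 / (1 + Q + R : ℂ) = 0 := by
    rw [e5, e6, e12] at hG
    conv at hG => lhs; rw [f4]
    rw [L _ _ _ _ _ hX', L _ _ _ _ _ hM', L _ _ _ _ _ hV', L _ _ _ _ _ hQ', L _ _ _ _ _ hR']
      at hG
    linear_combination hG
  have eF : a ^ 2 / (Q + P + R) - a ^ 2 / Q + 2 * (a - t) ^ 2 / (1 + Q + R) -
      2 * (a - t) ^ 2 / (1 + Q + R + 2 * P : ℂ) = 0 := by
    rw [e5, e6, e12, e9, hY''] at hF
    conv at hF => lhs; rw [f3, f4]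
    rw [L _ _ _ _ _ hX', L _ _ _ _ _ hM', L _ _ _ _ _ hV', L _ _ _ _ _ hQ', L _ _ _ _ _ hR',
      L _ _ _ _ _ hY', L _ _ _ _ _ hP'] at hF
    linear_combination hF
  have eC : s ^ 2 - p ^ 2 / R - 2 * (p ^ 2 / P) - (s + p) ^ 2 / (1 + Q + R : ℂ) = 0 := by
    rw [g5, g6] at hC
    conv at hC => lhs; rw [g2, g4]
    rw [L _ _ _ _ _ hX', L _ _ _ _ _ hM', L _ _ _ _ _ hP', L _ _ _ _ _ hQ', L _ _ _ _ _ hR']
      at hC
    linear_combination hC
  have eD : 2 * (s ^ 2 + p ^ 2 / P - (s - p) ^ 2 / (1 + Q + R + 2 * P : ℂ)) -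
      3 * (p ^ 2 / P + p ^ 2 / R) = 0 := by
    rw [g9, g6, g12, hY''] at hD
    conv at hD => lhs; rw [g4]
    rw [L _ _ _ _ _ hY', L _ _ _ _ _ hM', L _ _ _ _ _ hP', L _ _ _ _ _ hV', L _ _ _ _ _ hR']
      at hD
    linear_combination hD
  have eA : -(s * t) + (a - t) * ((s + p) / (1 + Q + R) -
      2 * (s - p) / (1 + Q + R + 2 * P : ℂ)) = 0 := by
    rw [g5, g9, g12, e5, e9, e12, hY''] at hA
    conv at hA => lhs; rw [g2, g4, f3, f4]
    rw [L _ _ _ _ _ hX', L _ _ _ _ _ hY', L _ _ _ _ _ hP', L _ _ _ _ _ hV', L _ _ _ _ _ hR',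
      L _ _ _ _ _ hQ'] at hA
    linear_combination hA
  by_cases hp : p = 0
  · -- `w` lies in the kernel
    subst hp
    right
    have hs : s = 0 := by
      by_contra hs
      field_simp at eC eD
      have h1' : (1 : ℂ) + Q + R = 1 := mul_left_cancel₀ (pow_ne_zero 2 hs) (by
        refine mul_left_cancel₀ (mul_ne_zero hP' hR') ?_
        linear_combination eC)
      have h2' : (1 : ℂ) + Q + R + 2 * P = 1 := mul_left_cancel₀ (pow_ne_zero 2 hs) (by
        refine mul_left_cancel₀ (mul_ne_zero (mul_ne_zero two_ne_zero hP') hR') ?_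
        linear_combination eD)
      exact hP' (by linear_combination (h2' - h1') / 2)
    rw [hs, add_zero, one_mul]
  left
  by_cases ht : t = 0
  · subst ht
    by_cases ha : a = 0
    · rw [ha, add_zero, add_zero, one_mul]
    exfalso
    have hY2 : (1 : ℂ) + Q + R + P * 2 ≠ 0 := by rwa [mul_comm] at hY'
    field_simp at eG eA eC eD
    have hP1 : (P : ℂ) = 1 := by
      have : a ^ 2 * ((1 : ℂ) + Q + R - (Q + P + R)) = 0 := by linear_combination eG
      rcases mul_eq_zero.mp this with h | h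
      · exact absurd (pow_eq_zero_iff (n := 2) (by norm_num) |>.mp h) ha
      · linear_combination -h
    rw [hP1] at eA eC eD hY'
    obtain ⟨x, hx⟩ : ∃ x : ℂ, x = 1 + Q + R := ⟨_, rfl⟩
    rw [← hx] at eA eC eD hX' hY'
    have hA' : (s + p) * (x + 2) - 2 * (s - p) * x = 0 := by
      refine (mul_eq_zero.mp (?_ : a * _ = 0)).resolve_left ha
      linear_combination eA
    have hE : (s ^ 2 - 5 * p ^ 2) * x ^ 2 + (s ^ 2 - 10 * s * p - 11 * p ^ 2) * x -
        6 * (s + p) ^ 2 = 0 := by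
      refine (mul_eq_zero.mp (?_ : (R : ℂ) * _ = 0)).resolve_left hR'
      linear_combination 3 * (x + 2) * eC - x * eD
    have hfin : 4 * x ^ 2 * (x ^ 2 - 4) * p ^ 2 = 0 := by
      linear_combination (x - 2) ^ 2 * hE +
        ((x ^ 2 + x - 6) * (s * (x - 2) + p * (2 + 3 * x)) +
          (-10 * x - 12) * p * (x - 2)) * hA'
    rcases mul_eq_zero.mp hfin with h | h
    swap
    · exact hp (pow_eq_zero_iff (n := 2) (by norm_num) |>.mp h)
    rcases mul_eq_zero.mp h with h | h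
    · exact hX' (pow_eq_zero_iff (n := 2) (by norm_num) |>.mp (by linear_combination h / 4))
    have h' : (x - 2) * (x + 2) = 0 := by linear_combination h
    rcases mul_eq_zero.mp h' with h | h
    · have hx2 : x = 2 := by linear_combination h
      subst hx2
      exact hp (by linear_combination hA' / 8)
    · exact hY' (by linear_combination h)
  have hY2 : (1 : ℂ) + Q + R + P * 2 ≠ 0 := by rwa [mul_comm] at hY'
  have := core (c := a / t) (s := s / p) hP' hQ' hR' hX' hY' hV' hM' hP3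
    (by
      field_simp at eG ⊢
      linear_combination eG)
    (by
      field_simp at eC ⊢
      linear_combination eC)
    (by
      field_simp at eD ⊢
      linear_combination eD)
    (by
      field_simp at eA ⊢
      linear_combination eA)
    (by
      field_simp at eF ⊢
      linear_combination -eF)
  field_simp at this
  linear_combination this

end Cfsg.Agent.AltNine
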