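import Mathlib.Algebra.BigOperators.Ring.Finset
import Mathlib.Algebra.Order.BigOperators.Group.Finset
import Mathlib.Algebra.Order.Ring.Int
import Mathlib.Data.List.GetD
import Mathlib.Tactic.IntervalCases
import Mathlib.Tactic.Ring
import Mathlib.Tactic.Linarith

/-!
An exhaustive list of the shapes of a family of integer vectors with given inner products and norms
at most four, one distinguished coordinate being prescribed.
-/

set_option autoImplicit false

namespace Cfsg.Agent.AltNine.Enum

/-- A search state: the distinguished coordinate and the other coordinates, as columns. -/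
abbrev State : Type := List ℤ × List (List ℤ)

/-- Some inner product can no longer be reached. -/
def prune (cols : List (List ℤ)) (need : List ℤ) : Bool :=
  (List.range need.length).any fun j => need.getD j 0 != 0 && cols.all fun c => c.getD j 0 == 0

/-- All coefficient lists with squares bounded by `b` and the prescribed inner products. -/
def enum : List (List ℤ) → List ℤ → ℤ → List (List ℤ)
  | [], need, _ => if need.all (fun n => n == 0) then [[]] else []
  | c :: cs, need, b =>
    if prune (c :: cs) need then [] else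
      ([0, 1, -1, 2, -2] : List ℤ).flatMap fun x =>
        if x * x ≤ b then
          (enum cs ((List.range need.length).map fun j => need.getD j 0 - x * c.getD j 0)
            (b - x * x)).map (x :: ·)
        else []

theorem not_prune (L : List (List ℤ × ℤ)) (need : List ℤ)
    (h : ∀ j < need.length, (L.map fun p => p.2 * p.1.getD j 0).sum = need.getD j 0) :
    prune (L.map Prod.fst) need = false := by
  rw [prune, List.any_eq_false]
  intro j hj hb
  simp only [Bool.and_eq_true, bne_iff_ne, ne_eq, List.all_eq_true, beq_iff_eq,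
    List.mem_map, forall_exists_index, and_imp, forall_apply_eq_imp_iff₂] at hb
  refine hb.1 ?_
  rw [← h j (List.mem_range.mp hj)]
  refine List.sum_eq_zero fun x hx => ?_
  obtain ⟨p, hp, rfl⟩ := List.mem_map.mp hx
  rw [hb.2 p hp, mul_zero]

theorem mem_enum : ∀ (L : List (List ℤ × ℤ)) (need : List ℤ) (b : ℤ), b ≤ 4 →
    (L.map fun p => p.2 * p.2).sum ≤ b →
    (∀ j < need.length, (L.map fun p => p.2 * p.1.getD j 0).sum = need.getD j 0) →
    L.map Prod.snd ∈ enum (L.map Prod.fst) need b := by
  intro L
  induction L with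
  | nil =>
    intro need b _ _ h
    have hz : need.all (fun n => n == 0) = true := by
      rw [List.all_eq_true]
      intro n hn
      obtain ⟨j, hj, rfl⟩ := List.getElem_of_mem hn
      have := h j hj
      rw [List.map_nil, List.sum_nil, List.getD_eq_getElem _ _ hj] at this
      simp [← this]
    simp only [List.map_nil, enum, hz, if_true, List.mem_singleton]
  | cons p L ih =>
    intro need b hb hsq h
    rw [List.map_cons, List.map_cons, enum]
    have hp := not_prune (p :: L) need h
    rw [List.map_cons] at hp
    rw [hp]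
    simp only [Bool.false_eq_true, if_false]
    have hnn : 0 ≤ (L.map fun q => q.2 * q.2).sum := List.sum_nonneg fun x hx => by
      obtain ⟨q, _, rfl⟩ := List.mem_map.mp hx; exact mul_self_nonneg _
    rw [List.map_cons, List.sum_cons] at hsq
    have hx2 : p.2 * p.2 ≤ 4 := by linarith
    have hx : p.2 ∈ ([0, 1, -1, 2, -2] : List ℤ) := by
      have h1 : -2 ≤ p.2 := by nlinarith
      have h2 : p.2 ≤ 2 := by nlinarith
      interval_cases p.2 <;> simp
    refine List.mem_flatMap.mpr ⟨p.2, hx, ?_⟩
    rw [if_pos (by linarith)]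
    refine List.mem_map.mpr ⟨L.map Prod.snd, ih _ _ (by nlinarith [mul_self_nonneg p.2])
      (by linarith) ?_, rfl⟩
    intro j hj
    rw [List.length_map, List.length_range] at hj
    have := h j hj
    rw [List.map_cons, List.sum_cons] at this
    rw [List.getD_eq_getElem _ _ (by simpa using hj), List.getElem_map, List.getElem_range]
    linarith

/-- The inner products still needed. -/
def needs (g : ℕ → ℕ → ℤ) (x : ℕ → ℤ) (i : ℕ) (c0 : List ℤ) : List ℤ :=
  (List.range i).map fun j => g i j - x i * c0.getD j 0

/-- The budget. -/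
def budget (g : ℕ → ℕ → ℤ) (x : ℕ → ℤ) (i : ℕ) : ℤ := g i i - x i * x i

/-- One more vector. -/
def step (g : ℕ → ℕ → ℤ) (x : ℕ → ℤ) (i : ℕ) (st : State) : List State :=
  (enum st.2 (needs g x i st.1) (budget g x i)).map fun xs =>
    (st.1 ++ [x i], List.zipWith (fun c a => c ++ [a]) st.2 xs ++
      List.replicate (budget g x i - (xs.map fun a => a * a).sum).toNat (List.replicate i 0 ++ [1]))

/-- The search is exhaustive at this state: no residual entry can exceed one. -/
def okStep (g : ℕ → ℕ → ℤ) (x : ℕ → ℤ) (i : ℕ) (st : State) : Bool :=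
  decide (budget g x i ≤ 4) &&
    (decide (budget g x i ≤ 3) || (needs g x i st.1).any fun n => n != 0)

/-- The states after `i` vectors. -/
def run (g : ℕ → ℕ → ℤ) (x : ℕ → ℤ) : ℕ → List State
  | 0 => [([], [])]
  | i + 1 => (run g x i).flatMap (step g x i)

/-- An occupied coordinate, with a sign and its column. -/
structure Atom (P : Type*) where
  /-- The coordinate. -/
  p : P
  /-- The sign. -/
  s : ℤ
  /-- The column. -/
  col : List ℤ

variable {P : Type*} [DecidableEq P]

/-- The contribution of the occupied coordinates at `ψ` to the vector `j`. -/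
def value (A : List (Atom P)) (j : ℕ) (ψ : P) : ℤ :=
  (A.map fun a => if a.p = ψ then a.s * a.col.getD j 0 else 0).sum

/-- The state describes the first `i` vectors. -/
def Realises (m : ℕ → P → ℤ) (e : P) (i : ℕ) (st : State) : Prop :=
  st.1.length = i ∧ ∃ A : List (Atom P), A.map Atom.col = st.2 ∧ (A.map Atom.p).Nodup ∧
    (∀ a ∈ A, a.p ≠ e ∧ a.s * a.s = 1 ∧ a.col.length = i) ∧
    ∀ j < i, m j e = st.1.getD j 0 ∧ ∀ ψ, ψ ≠ e → m j ψ = value A j ψ

theorem sum_value [Fintype P] (A : List (Atom P)) (j : ℕ) (F : P → ℤ) :
    ∑ ψ, value A j ψ * F ψ = (A.map fun a => a.s * a.col.getD j 0 * F a.p).sum := by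
  induction A with
  | nil => simp [value]
  | cons a A ih =>
    have : ∀ ψ, value (a :: A) j ψ * F ψ =
        (if a.p = ψ then a.s * a.col.getD j 0 * F ψ else 0) + value A j ψ * F ψ := by
      intro ψ
      simp only [value, List.map_cons, List.sum_cons, add_mul, ite_mul, zero_mul]
    rw [Finset.sum_congr rfl fun ψ _ => this ψ, Finset.sum_add_distrib, ih]
    simp

theorem step_spec [Fintype P] {g : ℕ → ℕ → ℤ} {x : ℕ → ℤ} {m : ℕ → P → ℤ} {e : P} {i : ℕ}
    {st : State} (hg : ∀ j ≤ i, ∑ ψ, m i ψ * m j ψ = g i j) (hx : m i e = x i)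
    (hok : okStep g x i st = true) (hR : Realises m e i st) :
    ∃ st' ∈ step g x i st, Realises m e (i + 1) st' := by
  classical
  obtain ⟨hlen, A, hcols, hnd, hA, hval⟩ := hR
  simp only [okStep, Bool.and_eq_true, decide_eq_true_eq, Bool.or_eq_true, List.any_eq_true,
    bne_iff_ne, ne_eq] at hok
  set xs : List ℤ := A.map fun a => a.s * m i a.p with hxs
  -- the inner products with the earlier vectors
  have hinner : ∀ j < i, (A.map fun a => a.s * m i a.p * a.col.getD j 0).sum =
      g i j - x i * st.1.getD j 0 := by
    intro j hj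
    rw [← hg j hj.le, ← (hval j hj).1, ← hx, ← Finset.add_sum_erase _ _ (Finset.mem_univ e),
      add_sub_cancel_left]
    have h1 : ∀ ψ ∈ (Finset.univ : Finset P).erase e, m i ψ * m j ψ = value A j ψ * m i ψ :=
      fun ψ hψ => by rw [(hval j hj).2 ψ (Finset.ne_of_mem_erase hψ), mul_comm]
    rw [Finset.sum_congr rfl h1, Finset.sum_erase, sum_value]
    · exact congrArg List.sum (List.map_congr_left fun a _ => by ring)
    · have : value A j e = 0 := List.sum_eq_zero fun y hy => by
        obtain ⟨a, ha, rfl⟩ := List.mem_map.mp hy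
        rw [if_neg (hA a ha).1]
      rw [this, zero_mul]
  -- the residual coordinates
  set F : Finset P := (A.map Atom.p).toFinset with hF
  set R : Finset P := ((Finset.univ.erase e) \ F).filter fun ψ => m i ψ ≠ 0 with hR'
  have hFe : F ⊆ Finset.univ.erase e := fun ψ hψ => by
    obtain ⟨a, ha, rfl⟩ := List.mem_map.mp (List.mem_toFinset.mp hψ)
    exact Finset.mem_erase.mpr ⟨(hA a ha).1, Finset.mem_univ _⟩
  have hsq : (xs.map fun a => a * a).sum + ∑ ψ ∈ R, m i ψ * m i ψ = budget g x i := by
    rw [budget, ← hg i le_rfl, ← hx, ← Finset.add_sum_erase _ _ (Finset.mem_univ e),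
      add_sub_cancel_left, ← Finset.sum_sdiff hFe, add_comm]
    congr 1
    · rw [hR', Finset.sum_filter]
      exact Finset.sum_congr rfl fun ψ _ => by
        by_cases h : m i ψ = 0 <;> simp [h]
    · rw [hF, List.sum_toFinset _ hnd, hxs, List.map_map, List.map_map]
      refine congrArg List.sum (List.map_congr_left fun a ha => ?_)
      show a.s * m i a.p * (a.s * m i a.p) = m i a.p * m i a.p
      calc a.s * m i a.p * (a.s * m i a.p) = a.s * a.s * (m i a.p * m i a.p) := by ring
        _ = m i a.p * m i a.p := by rw [(hA a ha).2.1, one_mul]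
  have hxnn : 0 ≤ (xs.map fun a => a * a).sum := List.sum_nonneg fun y hy => by
    obtain ⟨a, _, rfl⟩ := List.mem_map.mp hy; exact mul_self_nonneg _
  have hRnn : 0 ≤ ∑ ψ ∈ R, m i ψ * m i ψ := Finset.sum_nonneg fun ψ _ => mul_self_nonneg _
  have hR3 : ∑ ψ ∈ R, m i ψ * m i ψ ≤ 3 := by
    rcases hok.2 with h3 | ⟨n, hn, hn0⟩
    · linarith
    · obtain ⟨j, hj, rfl⟩ := List.mem_map.mp hn
      by_contra h4
      refine hn0 ?_
      rw [← hinner j (List.mem_range.mp hj)]
      refine List.sum_eq_zero fun y hy => ?_
      obtain ⟨a, ha, rfl⟩ := List.mem_map.mp hy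
      have h0 : (xs.map fun a => a * a).sum = 0 := by linarith [hok.1]
      have : a.s * m i a.p * (a.s * m i a.p) = 0 := by
        have hle := List.single_le_sum (l := xs.map fun a => a * a) (fun y hy => by
          obtain ⟨a, _, rfl⟩ := List.mem_map.mp hy; exact mul_self_nonneg _)
          _ (List.mem_map.mpr ⟨_, List.mem_map.mpr ⟨a, ha, rfl⟩, rfl⟩)
        rw [h0] at hle
        exact le_antisymm hle (mul_self_nonneg _)
      rw [mul_self_eq_zero.mp this, zero_mul]
  have hone : ∀ ψ ∈ R, m i ψ * m i ψ = 1 := by
    intro ψ hψ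
    have hle := Finset.single_le_sum (f := fun ψ => m i ψ * m i ψ)
      (fun φ _ => mul_self_nonneg (m i φ)) hψ
    have h3 : m i ψ * m i ψ ≤ 3 := le_trans hle hR3
    have h0 : m i ψ ≠ 0 := (Finset.mem_filter.mp hψ).2
    have ha : -1 ≤ m i ψ := by nlinarith
    have hb : m i ψ ≤ 1 := by nlinarith
    interval_cases h : m i ψ
    · rfl
    · exact absurd rfl h0
    · rfl
  have hcard : (budget g x i - (xs.map fun a => a * a).sum).toNat = R.card := by
    have : ∑ ψ ∈ R, m i ψ * m i ψ = (R.card : ℤ) := by
      rw [Finset.sum_congr rfl hone, Finset.sum_const, nsmul_one]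
    omega
  have hmem : xs ∈ enum st.2 (needs g x i st.1) (budget g x i) := by
    have := mem_enum (A.map fun a => (a.col, a.s * m i a.p)) (needs g x i st.1) (budget g x i)
      hok.1
      (by
        have h := hsq
        rw [hxs, List.map_map] at h
        rw [List.map_map]
        exact le_of_le_of_eq (le_add_of_nonneg_right hRnn) h)
      (fun j hj => by
        rw [needs, List.length_map, List.length_range] at hj
        rw [needs, List.getD_eq_getElem _ _ (by simpa using hj), List.getElem_map,
          List.getElem_range, ← hinner j hj, List.map_map]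
        rfl)
    rw [List.map_map, List.map_map] at this
    rw [← hcols]
    exact this
  refine ⟨_, List.mem_map.mpr ⟨xs, hmem, rfl⟩, by simp [hlen], ?_⟩
  refine ⟨A.map (fun a => ⟨a.p, a.s, a.col ++ [a.s * m i a.p]⟩) ++
    R.toList.map (fun ψ => ⟨ψ, m i ψ, List.replicate i 0 ++ [1]⟩), ?_, ?_, ?_, ?_⟩
  · rw [hcard, List.map_append, List.map_map, List.map_map, ← hcols, hxs, List.zipWith_map,
      List.zipWith_self, ← R.length_toList, ← List.map_const']
    rfl
  · rw [List.map_append, List.map_map, List.map_map]
    refine List.nodup_append.mpr ⟨hnd, (List.map_congr_left fun _ _ => rfl).trans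
      (List.map_id _) ▸ R.nodup_toList, ?_⟩
    intro a ha b hb hab
    obtain ⟨ψ, hψ, rfl⟩ := List.mem_map.mp hb
    have := (Finset.mem_sdiff.mp (Finset.mem_filter.mp (Finset.mem_toList.mp hψ)).1).2
    have hab' : a = ψ := hab
    rw [hab'] at ha
    exact this (List.mem_toFinset.mpr ha)
  · intro a ha
    rcases List.mem_append.mp ha with h | h
    · obtain ⟨b, hb, rfl⟩ := List.mem_map.mp h
      exact ⟨(hA b hb).1, (hA b hb).2.1, by simp [(hA b hb).2.2]⟩
    · obtain ⟨ψ, hψ, rfl⟩ := List.mem_map.mp h
      rw [Finset.mem_toList] at hψ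
      exact ⟨(Finset.mem_erase.mp (Finset.mem_sdiff.mp (Finset.mem_filter.mp hψ).1).1).1,
        hone ψ hψ, by simp⟩
  · intro j hj
    rcases Nat.lt_succ_iff_lt_or_eq.mp hj with hlt | rfl
    · refine ⟨?_, fun ψ hψ => ?_⟩
      · rw [List.getD_append _ _ _ _ (by omega)]
        exact (hval j hlt).1
      · rw [(hval j hlt).2 ψ hψ, value, value, List.map_append, List.sum_append, List.map_map]
        rw [eq_comm, add_eq_left.mpr]
        · refine congrArg List.sum (List.map_congr_left fun a ha => ?_)
          show (if a.p = ψ then a.s * (a.col ++ [_]).getD j 0 else 0) = _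
          rw [List.getD_append _ _ _ _ (by rw [(hA a ha).2.2]; exact hlt)]
        · refine List.sum_eq_zero fun y hy => ?_
          rw [List.map_map] at hy
          obtain ⟨φ, _, rfl⟩ := List.mem_map.mp hy
          show (if φ = ψ then m i φ * (List.replicate i (0 : ℤ) ++ [1]).getD j 0 else 0) = 0
          rw [List.getD_append _ _ _ _ (by simpa using hlt)]
          simp
    · refine ⟨?_, fun ψ hψ => ?_⟩
      · rw [List.getD_append_right _ _ _ _ (by omega)]
        simp [hlen, hx]
      · rw [value, List.map_append, List.sum_append, List.map_map, List.map_map]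
        have e1 : (A.map ((fun a : Atom P => if a.p = ψ then a.s * a.col.getD j 0 else 0) ∘
            fun a => ⟨a.p, a.s, a.col ++ [a.s * m j a.p]⟩)) =
            A.map fun a => if a.p = ψ then m j a.p else 0 := by
          refine List.map_congr_left fun a ha => ?_
          show (if a.p = ψ then a.s * (a.col ++ [a.s * m j a.p]).getD j 0 else 0) = _
          rw [List.getD_append_right _ _ _ _ (by rw [(hA a ha).2.2]), (hA a ha).2.2, Nat.sub_self,
            List.getD_cons_zero, ← mul_assoc, (hA a ha).2.1, one_mul]
        have e2 : (R.toList.map ((fun a : Atom P => if a.p = ψ then a.s * a.col.getD j 0 else 0) ∘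
            fun φ => ⟨φ, m j φ, List.replicate j 0 ++ [1]⟩)) =
            R.toList.map fun φ => if φ = ψ then m j φ else 0 := by
          refine List.map_congr_left fun φ _ => ?_
          show (if φ = ψ then m j φ * (List.replicate j (0 : ℤ) ++ [1]).getD j 0 else 0) = _
          rw [List.getD_append_right _ _ _ _ (by simp), List.length_replicate, Nat.sub_self,
            List.getD_cons_zero, mul_one]
        rw [e1, e2, Finset.sum_map_toList, Finset.sum_ite_eq', show
          (A.map fun a => if a.p = ψ then m j a.p else 0).sum = ∑ φ ∈ F, if φ = ψ then m j φ else 0 by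
            rw [hF, List.sum_toFinset _ hnd, List.map_map]; rfl, Finset.sum_ite_eq']
        by_cases h1 : ψ ∈ F
        · rw [if_pos h1, if_neg, add_zero]
          exact fun h => (Finset.mem_sdiff.mp (Finset.mem_filter.mp h).1).2 h1
        · rw [if_neg h1, zero_add]
          by_cases h2 : m j ψ = 0
          · simp [h2]
          · rw [if_pos (Finset.mem_filter.mpr ⟨Finset.mem_sdiff.mpr
              ⟨Finset.mem_erase.mpr ⟨hψ, Finset.mem_univ _⟩, h1⟩, h2⟩)]

/-- Every family with the prescribed inner products has one of the listed shapes. -/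
theorem run_spec [Fintype P] {g : ℕ → ℕ → ℤ} {x : ℕ → ℤ} {m : ℕ → P → ℤ} {e : P} (N : ℕ)
    (hg : ∀ i < N, ∀ j ≤ i, ∑ ψ, m i ψ * m j ψ = g i j) (hx : ∀ i < N, m i e = x i)
    (hok : ∀ i < N, (run g x i).all (okStep g x i) = true) :
    ∃ st ∈ run g x N, Realises m e N st := by
  induction N with
  | zero =>
    exact ⟨([], []), by simp [run], rfl, [], rfl, List.nodup_nil, by simp,
      fun j hj => absurd hj (Nat.not_lt_zero j)⟩
  | succ n ih =>
    obtain ⟨st, hst, hR⟩ := ih (fun i hi => hg i (by omega)) (fun i hi => hx i (by omega))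
      (fun i hi => hok i (by omega))
    obtain ⟨st', hst', hR'⟩ := step_spec (hg n (by omega)) (hx n (by omega))
      (List.all_eq_true.mp (hok n (by omega)) st hst) hR
    exact ⟨st', List.mem_flatMap.mpr ⟨st, hst, hst'⟩, hR'⟩

end Cfsg.Agent.AltNine.Enum
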