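import Cfsg.Agent.AltNine.Data
import Cfsg.Agent.AltNine.Enum

/-!
The possible shapes of nine generalised characters with the tabulated inner products.
-/

set_option autoImplicit false

namespace Cfsg.Agent.AltNine

/-- The dot product of a coefficient list with a column. -/
def dotCol (c : List ℤ) (col : List ℤ) : ℤ :=
  ((List.range c.length).map fun j => c.getD j 0 * col.getD j 0).sum

/-- The degree combination which leaves a single character. -/
def certCoef : List ℤ := [1, 0, -1, 0, 0, 0, 0, 1, 0]

/-- The combination which is `η₅ - η₇`. -/
def fusCoef : List ℤ := [-1, 0, -2, 0, 1, 0, -1, 1, 1]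

/-- The positions of the four main vectors. -/
def basePos : List ℕ := [2, 3, 4, 6]

/-- The expected columns of the main vectors at the seven atoms. -/
def wanted : List (List ℤ) :=
  [[0, 1, 1, 0], [1, 0, 0, 1], [1, 0, 1, 0], [0, 0, -1, 0], [-1, 1, 0, 0], [0, 0, 0, -1],
    [0, -1, 0, 1]]

/-- The main part of a column. -/
def proj (col : List ℤ) : List ℤ := basePos.map fun i => col.getD i 0

/-- The sign with which a column stands for a wanted one. -/
def sel (w col : List ℤ) : ℤ :=
  if proj col == w then 1 else if proj col == w.map (fun a => -a) then -1 else 0

/-- The shape is the expected one on the main vectors. -/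
def matchSt (st : Enum.State) : Bool :=
  (st.2.all fun col => proj col == (List.range 4).map fun i =>
      (wanted.map fun w => sel w col * w.getD i 0).sum) &&
    wanted.all fun w => (st.2.filter fun col => sel w col != 0).length == 1

/-- A single character would have degree zero. -/
def certSt (st : Enum.State) : Bool :=
  dotCol certCoef st.1 == 0 && (st.2.filter fun col => dotCol certCoef col != 0).length == 1

/-- Some character has a multiplicity in `η₅ - η₇` prime to three. -/
def fusSt (st : Enum.State) : Bool :=
  st.2.any fun col => dotCol fusCoef col % 3 != 0

theorem okStep_all : ∀ i < 9, (Enum.run gram oneCoef i).all (Enum.okStep gram oneCoef i) = true := by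
  decide +kernel

theorem shapes : (Enum.run gram oneCoef 9).all (fun st =>
    st.1 == oneList && (matchSt st || certSt st) && fusSt st) = true := by
  decide +kernel

end Cfsg.Agent.AltNine
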