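import Cfsg.Agent.AltNine.Setup
import Cfsg.Agent.AltNine.Shapes
import Cfsg.Agent.AltNine.Algebra

/-!
The induced class functions have the expected shapes, the two classes of involutions do not fuse,
and some irreducible character has one of the involutions in its kernel.
-/

set_option autoImplicit false

open Cfsg
open scoped ComplexConjugate

namespace Cfsg.Agent.AltNine

open Enum (Atom value)

theorem sum_value_mul {P : Type*} [Fintype P] [DecidableEq P] (A : List (Atom P)) (j : ℕ)
    (F : P → ℂ) :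
    ∑ ψ, (value A j ψ : ℂ) * F ψ = (A.map fun a => (a.s : ℂ) * (a.col.getD j 0 : ℂ) * F a.p).sum := by
  induction A with
  | nil => simp [value]
  | cons a A ih =>
    have : ∀ ψ, (value (a :: A) j ψ : ℂ) * F ψ =
        (if a.p = ψ then (a.s : ℂ) * (a.col.getD j 0 : ℂ) * F ψ else 0) +
          (value A j ψ : ℂ) * F ψ := by
      intro ψ
      simp only [value, List.map_cons, List.sum_cons]
      split_ifs <;> push_cast <;> ring
    rw [Finset.sum_congr rfl fun ψ _ => this ψ, Finset.sum_add_distrib, ih]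
    simp

theorem value_at {P : Type*} [DecidableEq P] {A : List (Atom P)} (hA : (A.map Atom.p).Nodup)
    {a : Atom P} (ha : a ∈ A) (j : ℕ) : value A j a.p = a.s * a.col.getD j 0 := by
  induction A with
  | nil => simp at ha
  | cons b A ih =>
    rw [List.map_cons, List.nodup_cons] at hA
    rw [value, List.map_cons, List.sum_cons]
    rcases List.mem_cons.mp ha with rfl | h
    · rw [if_pos rfl, add_eq_left]
      refine List.sum_eq_zero fun y hy => ?_
      obtain ⟨c, hc, rfl⟩ := List.mem_map.mp hy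
      rw [if_neg]
      intro hcp
      exact hA.1 (List.mem_map.mpr ⟨c, hc, hcp⟩)
    · rw [if_neg fun hbp => hA.1 (by rw [hbp]; exact List.mem_map.mpr ⟨a, h, rfl⟩), zero_add]
      exact ih hA.2 h

/-- A sum over a list to which a single entry contributes. -/
theorem sum_single_of_filter {α : Type*} (l : List α) (p : α → Bool) (g : α → ℂ) {a : α}
    (h : l.filter p = [a]) (hz : ∀ b ∈ l, p b = false → g b = 0) : (l.map g).sum = g a := by
  induction l with
  | nil => simp at h
  | cons b l ih =>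
    rw [List.map_cons, List.sum_cons]
    by_cases hb : p b = true
    · rw [List.filter_cons, if_pos hb, List.cons.injEq] at h
      rw [← h.1, add_eq_left]
      refine List.sum_eq_zero fun y hy => ?_
      obtain ⟨c, hc, rfl⟩ := List.mem_map.mp hy
      refine hz c (List.mem_cons_of_mem _ hc) ?_
      rw [List.filter_eq_nil_iff] at h
      simpa using h.2 c hc
    · rw [List.filter_cons, if_neg hb] at h
      rw [hz b List.mem_cons_self (by simpa using hb), zero_add]
      exact ih h fun c hc => hz c (List.mem_cons_of_mem _ hc)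

theorem conj_two' (a : NH) (h : cls a = 2) : ∃ c : NH, c * zN * c⁻¹ = a := by
  obtain ⟨w, t, hc⟩ := conj_two a.v a.s h
  exact ⟨_, hc⟩

theorem conj_six' (a : NH) (h : cls a = 6) : ∃ c : NH, c * wN * c⁻¹ = a := by
  obtain ⟨w, t, hc⟩ := conj_six a.v a.s h
  exact ⟨_, hc⟩

set_option maxHeartbeats 1000000
variable {G : Type*} [Group G] [Fintype G] {H : Subgroup G} {e : H ≃* NH}

/-- The two involutions inside `G`. -/
theorem LocalData.exists_kernel (hL : LocalData e) :
    (¬ IsConj (emb e zN) (emb e wN)) ∧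
    ∃ ψ : IrrCharacter G, classInner (Theta e 3) (ψ : G → ℂ) ≠ 0 ∧
      ((ψ : G → ℂ) (emb e zN) = (ψ : G → ℂ) 1 ∨ (ψ : G → ℂ) (emb e wN) = (ψ : G → ℂ) 1) := by
  classical
  haveI := Fintype.ofFinite H
  -- multiplicities
  choose m hm hsum hnorm using fun j => OddChar.exists_eq_sum_zsmul (Theta_virt e j)
  let one : IrrCharacter G := ⟨fun _ => 1, Chars.isIrrCharacter_one⟩
  let mN : ℕ → IrrCharacter G → ℤ := fun j => if h : j < 9 then m ⟨j, h⟩ else 0
  have hmN : ∀ j : Fin 9, mN j.val = m j := fun j => by simp [mN]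
  have hg : ∀ i < 9, ∀ j ≤ i, ∑ ψ, mN i ψ * mN j ψ = gram i j := by
    intro i hi j hj
    have := hL.classInner_Theta (i := ⟨i, hi⟩) (j := ⟨j, by omega⟩) hj
    rw [hsum ⟨i, hi⟩, Chars.classInner_sum_left, Finset.sum_congr rfl (g := fun ψ =>
      ((m ⟨i, hi⟩ ψ * m ⟨j, by omega⟩ ψ : ℤ) : ℂ)) (fun ψ _ => by
        rw [OddChar.classInner_zsmul_left, ← Chars.classInner_conj_symm, hm, map_intCast]
        push_cast; rfl), ← Int.cast_sum] at this
    rw [← hmN ⟨i, hi⟩, ← hmN ⟨j, by omega⟩] at this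
    exact_mod_cast this
  have hx : ∀ i < 9, mN i one = oneCoef i := by
    intro i hi
    have h := hm ⟨i, hi⟩ one
    rw [show classInner (Theta e ⟨i, hi⟩) (one : G → ℂ) = (oneCoef i : ℂ) from
      classInner_Theta_one ⟨i, hi⟩, ← hmN ⟨i, hi⟩] at h
    exact_mod_cast h.symm
  obtain ⟨st, hst, -, A, hcols, hnd, hA, hval⟩ := Enum.run_spec 9 hg hx okStep_all
  have hgood := List.all_eq_true.mp shapes st hst
  simp only [Bool.and_eq_true, Bool.or_eq_true, beq_iff_eq] at hgood
  obtain ⟨⟨hc0, hms⟩, hfus⟩ := hgood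
  -- the atoms as functions
  let av : Atom (IrrCharacter G) → G → ℂ := fun a g => (a.s : ℂ) * (a.p : G → ℂ) g
  have hdec : ∀ (j : Fin 9) (F : IrrCharacter G → ℂ),
      ∑ ψ, (m j ψ : ℂ) * F ψ = (oneCoef j.val : ℂ) * F one +
        (A.map fun a => (a.s : ℂ) * (a.col.getD j.val 0 : ℂ) * F a.p).sum := by
    intro j F
    rw [← sum_value_mul, ← Finset.add_sum_erase _ _ (Finset.mem_univ one)]
    conv_rhs => rw [← Finset.add_sum_erase _ _ (Finset.mem_univ one)]
    have h0 : value A j.val one = 0 := List.sum_eq_zero fun y hy => by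
      obtain ⟨a, ha, rfl⟩ := List.mem_map.mp hy
      rw [if_neg (hA a ha).1]
    rw [h0, Int.cast_zero, zero_mul, zero_add, ← hmN j, hx j.val j.2]
    congr 1
    exact Finset.sum_congr rfl fun ψ hψ => by
      rw [(hval j.val j.2).2 ψ (Finset.ne_of_mem_erase hψ)]
  have hTheta : ∀ (j : Fin 9) (g : G), Theta e j g = (oneCoef j.val : ℂ) +
      (A.map fun a => (a.col.getD j.val 0 : ℂ) * av a g).sum := by
    intro j g
    conv_lhs => rw [hsum j]
    rw [Finset.sum_apply, Finset.sum_congr rfl (g := fun ψ => (m j ψ : ℂ) * (ψ : G → ℂ) g)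
      (fun ψ _ => by simp), hdec j fun ψ => (ψ : G → ℂ) g]
    simp only [one, mul_one, av]
    congr 2
    exact List.map_congr_left fun a _ => by ring
  have hdeg : ∀ a ∈ A, ∃ n : ℤ, n ≠ 0 ∧ av a 1 = n := by
    intro a ha
    obtain ⟨n, hn⟩ := Chars.exists_apply_one_eq (Chars.irr_isCharacter a.p)
    refine ⟨a.s * n, mul_ne_zero (fun h => ?_) ?_, ?_⟩
    · simpa [h] using (hA a ha).2.1
    · intro h
      exact Chars.irr_apply_one_ne_zero a.p.2 (by rw [hn]; exact_mod_cast h)
    · simp [av, hn]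
  -- the shape is the expected one
  have hmatch : matchSt st = true := by
    rcases hms with h | h
    · exact h
    exfalso
    simp only [certSt, Bool.and_eq_true, beq_iff_eq] at h
    obtain ⟨h0, h1⟩ := h
    rw [← hcols, List.filter_map, List.length_map, List.length_eq_one_iff] at h1
    obtain ⟨a, ha⟩ := h1
    have hz : ∑ j : Fin 9, (certCoef.getD j.val 0 : ℂ) * Theta e j 1 = 0 :=
      Finset.sum_eq_zero fun j _ => by rw [Theta_apply_one, mul_zero]
    have h0' : (∑ j : Fin 9, (certCoef.getD j.val 0 : ℂ) * (oneCoef j.val : ℂ)) = 0 := by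
      rw [hc0] at h0
      have : ∑ j : Fin 9, certCoef.getD j.val 0 * oneCoef j.val = 0 := by decide
      exact_mod_cast this
    have hcomb : ∀ col : List ℤ, (dotCol certCoef col : ℂ) =
        ∑ j : Fin 9, (certCoef.getD j.val 0 : ℂ) * (col.getD j.val 0 : ℂ) := by
      intro col
      simp [dotCol, certCoef, Fin.sum_univ_succ, List.range_succ] <;> ring
    simp only [hTheta, mul_add, Finset.sum_add_distrib, h0', zero_add] at hz
    have hswap : ∀ l : List (Atom (IrrCharacter G)),
        (∑ j : Fin 9, (certCoef.getD j.val 0 : ℂ) *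
          (l.map fun a => (a.col.getD j.val 0 : ℂ) * av a 1).sum) =
        (l.map fun a => (dotCol certCoef a.col : ℂ) * av a 1).sum := by
      intro l
      induction l with
      | nil => simp
      | cons b l ih =>
        simp only [List.map_cons, List.sum_cons, mul_add, Finset.sum_add_distrib, ih,
          hcomb b.col, Finset.sum_mul, mul_assoc]
    rw [hswap, sum_single_of_filter A _ (fun a => (dotCol certCoef a.col : ℂ) * av a 1) ha
      (fun b _ hb => by
        simp only [Function.comp_apply, bne_eq_false_iff_eq] at hb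
        rw [hb, Int.cast_zero, zero_mul])] at hz
    obtain ⟨ha1, ha2⟩ := List.mem_filter.mp (ha ▸ List.mem_singleton_self a : a ∈ A.filter _)
    obtain ⟨n, hn, hn'⟩ := hdeg a ha1
    rw [hn'] at hz
    simp only [Function.comp_apply, bne_iff_ne, ne_eq] at ha2
    rcases mul_eq_zero.mp hz with h' | h'
    · exact ha2 (by exact_mod_cast h')
    · exact hn (by exact_mod_cast h')
  -- the involutions do not fuse
  have hnf : ¬ IsConj (emb e zN) (emb e wN) := by
    intro hzw
    simp only [fusSt, List.any_eq_true, bne_iff_ne, ne_eq] at hfus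
    obtain ⟨col, hcol, hne⟩ := hfus
    rw [← hcols] at hcol
    obtain ⟨a, ha, rfl⟩ := List.mem_map.mp hcol
    refine hne ?_
    obtain ⟨ε, hε⟩ : ∃ ε : ℂ, IsPrimitiveRoot ε 3 :=
      ⟨_, Complex.isPrimitiveRoot_exp 3 (by norm_num)⟩
    have hψc := Chars.irr_isCharacter a.p
    have eval : ∀ (c : List ℤ) (r : NH) (p k : ℕ),
        (∀ v s, ∑ j : Fin 9, (c.getD j.val 0 : Zsqrtd 3) * thetaVal j ⟨v, s⟩ =
          if cls ⟨v, s⟩ = p then (k : Zsqrtd 3) else 0) →
        (∀ v s, cls ⟨v, s⟩ = p → ∃ w t, (⟨w, t⟩ : NH) * r * (⟨w, t⟩)⁻¹ = ⟨v, s⟩) →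
        k * (Finset.univ.filter fun u : NH => cls u = p).card = 648 →
        (a.p : G → ℂ) (emb e r) =
          ((∑ j : Fin 9, c.getD j.val 0 * m j a.p : ℤ) : ℂ) := by
      intro c r p k hv hconj hk
      have h1 : ((∑ j : Fin 9, c.getD j.val 0 * m j a.p : ℤ) : ℂ) =
          conj ((a.p : G → ℂ) (emb e r)) := by
        push_cast
        simp only [← hm, Theta, Chars.classInner_indFun H _
          (Chars.isClassFunction_of_isCharacter hψc), Chars.classInner_def, card_H e,
          Finset.mul_sum]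
        rw [Finset.sum_comm]
        have h2 : ∀ h : H, (∑ j : Fin 9, (c.getD j.val 0 : ℂ) *
            (((648 : ℕ) : ℂ)⁻¹ * (thetaG e j h * conj ((a.p : G → ℂ) h)))) =
            (fun u : NH => if cls u = p then
              ((648 : ℕ) : ℂ)⁻¹ * ((k : ℂ) * conj ((a.p : G → ℂ) (emb e r))) else 0) (e h) := by
          intro h
          have hsum' : ∑ j : Fin 9, (c.getD j.val 0 : ℂ) * thetaG e j h =
              if cls (e h) = p then (k : ℂ) else 0 := by
            have := congrArg toC (hv (e h).v (e h).s)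
            simp only [map_sum, map_mul, map_intCast, apply_ite toC, map_natCast, map_zero] at this
            exact this
          calc _ = ((648 : ℕ) : ℂ)⁻¹ * ((∑ j : Fin 9, (c.getD j.val 0 : ℂ) * thetaG e j h) *
              conj ((a.p : G → ℂ) h)) := by
                rw [Finset.sum_mul, Finset.mul_sum]
                exact Finset.sum_congr rfl fun j _ => by ring
            _ = _ := by
                rw [hsum']
                by_cases hp : cls (e h) = p
                · simp only [hp, if_true]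
                  obtain ⟨w, t, hwt⟩ := hconj _ _ hp
                  have : (h : G) = emb e ⟨w, t⟩ * emb e r * (emb e ⟨w, t⟩)⁻¹ := by
                    rw [← map_inv, ← map_mul, ← map_mul, hwt]
                    exact (emb_apply e h).symm
                  rw [this, Chars.isCharacter_conj_apply hψc]
                · simp [hp]
        rw [Finset.sum_congr rfl fun h _ => h2 h, sum_H e fun u => if cls u = p then
          ((648 : ℕ) : ℂ)⁻¹ * ((k : ℂ) * conj ((a.p : G → ℂ) (emb e r))) else 0, ← Finset.sum_filter,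
          Finset.sum_const, nsmul_eq_mul]
        have hk' : (k : ℂ) * ((Finset.univ.filter fun u : NH => cls u = p).card : ℂ) = 648 := by
          exact_mod_cast hk
        push_cast
        linear_combination (648 : ℂ)⁻¹ * conj ((a.p : G → ℂ) (emb e r)) * hk'
      rw [← Complex.conj_conj ((a.p : G → ℂ) (emb e r)), ← h1, map_intCast]
    have v5 := eval eta5Coef g5N 5 12 (by exact_mod_cast eta5_val) conj_five
      (by rw [card_five])
    have v7 := eval eta7Coef g7N 7 6 (by exact_mod_cast eta7_val) conj_seven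
      (by rw [card_seven])
    obtain ⟨-, -, -, -, -, -, h56, h76, h5c, h7c⟩ := special_elems
    obtain ⟨u, hu, hue⟩ := OddChar.char_sub_cube hψc (g := emb e g5N)
      (by rw [← map_pow, h56, map_one]) hε
    obtain ⟨u', hu', hue'⟩ := OddChar.char_sub_cube hψc (g := emb e g7N)
      (by rw [← map_pow, h76, map_one]) hε
    obtain ⟨cc, hwt⟩ := conj_two' _ h5c
    obtain ⟨cc', hwt'⟩ := conj_six' _ h7c
    have c5 : (a.p : G → ℂ) (emb e g5N ^ 3) = (a.p : G → ℂ) (emb e zN) := by
      rw [← map_pow, ← hwt, map_mul, map_mul, map_inv, Chars.isCharacter_conj_apply hψc]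
    have c7 : (a.p : G → ℂ) (emb e g7N ^ 3) = (a.p : G → ℂ) (emb e wN) := by
      rw [← map_pow, ← hwt', map_mul, map_mul, map_inv, Chars.isCharacter_conj_apply hψc]
    obtain ⟨k, hk⟩ := isConj_iff.mp hzw
    have czw : (a.p : G → ℂ) (emb e zN) = (a.p : G → ℂ) (emb e wN) := by
      rw [← hk, Chars.isCharacter_conj_apply hψc]
    have hd : (3 : ℤ) ∣ ∑ j : Fin 9, eta5Coef.getD j.val 0 * m j a.p -
        ∑ j : Fin 9, eta7Coef.getD j.val 0 * m j a.p := by
      refine OddChar.prime_dvd_of_primitive_root Nat.prime_three hε (hu.sub hu') ?_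
      rw [Int.cast_sub, ← v5, ← v7]
      linear_combination hue - hue' + c5 - c7 + czw
    have hmv : ∀ j : Fin 9, m j a.p = a.s * a.col.getD j.val 0 := fun j => by
      rw [← hmN j, (hval j.val j.2).2 a.p (hA a ha).1, value_at hnd ha]
    have heq : ∑ j : Fin 9, eta5Coef.getD j.val 0 * m j a.p -
        ∑ j : Fin 9, eta7Coef.getD j.val 0 * m j a.p = a.s * dotCol fusCoef a.col := by
      simp only [hmv, dotCol, fusCoef, eta5Coef, eta7Coef, Fin.sum_univ_succ, Fin.sum_univ_zero]
      simp [List.range_succ]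
      ring
    rw [heq] at hd
    refine Int.emod_eq_zero_of_dvd ?_
    have := hd.mul_left a.s
    rwa [← mul_assoc, (hA a ha).2.1, one_mul] at this
  refine ⟨hnf, ?_⟩
  -- the classes inside the subgroup
  obtain ⟨hz2, hz1, hw2, hw1, hzc, hwc, -, -, -, -⟩ := special_elems
  have hcls : ∀ (c : NH), (c = zN ∨ c = wN) →
      ∀ u : NH, IsConj (emb e c) (emb e u) ↔ cls u = cls c := by
    have hone : ∀ c : NH, c * c = 1 → c ≠ 1 → ∀ u : NH, IsConj (emb e c) (emb e u) →
        cls u = 2 ∨ cls u = 6 := by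
      intro c hc hc1 u hu
      obtain ⟨k, hk⟩ := isConj_iff.mp hu
      have huu : u * u = 1 := emb_injective e (by
        rw [map_mul, ← hk, map_one]
        calc k * emb e c * k⁻¹ * (k * emb e c * k⁻¹) = k * (emb e c * emb e c) * k⁻¹ := by group
          _ = 1 := by rw [← map_mul, hc, map_one, mul_one, mul_inv_cancel])
      rcases sq_eq_one u.v u.s huu with h | h
      · exfalso
        refine hc1 (emb_injective e ?_)
        rw [show u = 1 from h, map_one, conj_eq_one_iff] at hk
        rw [hk, map_one]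
      · exact h
    have f2 : ∀ u : NH, cls u = 2 → IsConj (emb e zN) (emb e u) := fun u hu => by
      obtain ⟨w, t, h⟩ := conj_two u.v u.s hu
      exact isConj_iff.mpr ⟨emb e ⟨w, t⟩, by
        rw [← map_inv, ← map_mul, ← map_mul]; exact congrArg (emb e) h⟩
    have f6 : ∀ u : NH, cls u = 6 → IsConj (emb e wN) (emb e u) := fun u hu => by
      obtain ⟨w, t, h⟩ := conj_six u.v u.s hu
      exact isConj_iff.mpr ⟨emb e ⟨w, t⟩, by
        rw [← map_inv, ← map_mul, ← map_mul]; exact congrArg (emb e) h⟩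
    rintro c (rfl | rfl) u
    · rw [hzc]
      refine ⟨fun h => (hone zN hz2 hz1 u h).resolve_right fun h6 => ?_, f2 u⟩
      exact hnf (h.trans (f6 u h6).symm)
    · rw [hwc]
      refine ⟨fun h => (hone wN hw2 hw1 u h).resolve_left fun h2 => ?_, f6 u⟩
      exact hnf ((f2 u h2).trans h.symm)
  -- the vanishing bilinear expressions
  let B : G → G → Fin 9 → ℂ := fun x y j => (oneCoef j.val : ℂ) +
    (A.map fun a => (a.col.getD j.val 0 : ℂ) * (av a x * av a y / av a 1)).sum
  have hB : ∀ (a b : NH) (p q : ℕ), (a = zN ∨ a = wN) → (b = zN ∨ b = wN) → cls a = p → cls b = q →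
      ∀ j, (OddChar.clOf (emb e a)).card * (OddChar.clOf (emb e b)).card * B (emb e a) (emb e b) j =
        (Nat.card G : ℂ) / 648 * toC (pairSum j p q) := by
    intro a b p q hab hbb hp hq j
    have haa : a * a = 1 := by rcases hab with rfl | rfl; exacts [hz2, hw2]
    have hbb' : b * b = 1 := by rcases hbb with rfl | rfl; exacts [hz2, hw2]
    rw [← hL.class_sum j haa hbb' (hp ▸ hcls a hab) (hq ▸ hcls b hbb), mul_assoc]
    congr 1
    rw [Finset.sum_congr rfl fun y _ => hTheta j (emb e a * y), Finset.sum_add_distrib,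
      Finset.sum_const, nsmul_eq_mul]
    simp only [B, mul_add, mul_comm _ ((oneCoef j.val : ℂ))]
    congr 1
    rw [← List.sum_map_mul_left]
    have : ∀ l : List (Atom (IrrCharacter G)), (∑ y ∈ OddChar.clOf (emb e b),
        (l.map fun c => (c.col.getD j.val 0 : ℂ) * av c (emb e a * y)).sum) =
        (l.map fun c => ∑ y ∈ OddChar.clOf (emb e b),
          (c.col.getD j.val 0 : ℂ) * av c (emb e a * y)).sum := by
      intro l
      induction l with
      | nil => simp
      | cons c l ih => simp only [List.map_cons, List.sum_cons, Finset.sum_add_distrib, ih]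
    rw [this]
    refine congrArg List.sum (List.map_congr_left fun c hc => ?_)
    rw [← Finset.mul_sum, mul_left_comm ((OddChar.clOf (emb e b)).card : ℂ)]
    congr 1
    have hψ1 := Chars.irr_apply_one_ne_zero c.p.2
    have hs0 : (c.s : ℂ) ≠ 0 := by
      intro h
      have := (hA c hc).2.1
      rw [show c.s = 0 by exact_mod_cast h] at this
      norm_num at this
    have hsum := OddChar.irr_class_sum_mul c.p.2 (emb e b) (emb e a)
    simp only [av, ← Finset.mul_sum]
    field_simp
    linear_combination -hsum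
  have hcombo : ∀ (a b : NH) (p q : ℕ) (c : Fin 9 → ℤ), (a = zN ∨ a = wN) → (b = zN ∨ b = wN) →
      cls a = p → cls b = q → ∑ j, (c j : Zsqrtd 3) * pairSum j p q = 0 →
      ∑ j, (c j : ℂ) * B (emb e a) (emb e b) j = 0 := by
    intro a b p q c hab hbb hp hq h0
    have hpos : ∀ x : G, ((OddChar.clOf x).card : ℂ) ≠ 0 := fun x => by
      exact_mod_cast (Finset.card_pos.mpr ⟨x, OddChar.mem_clOf.mpr (IsConj.refl x)⟩).ne'
    refine (mul_eq_zero.mp (?_ : ((OddChar.clOf (emb e a)).card : ℂ) *
      ((OddChar.clOf (emb e b)).card : ℂ) * _ = 0)).resolve_left (mul_ne_zero (hpos _) (hpos _))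
    rw [Finset.mul_sum, Finset.sum_congr rfl (g := fun j => (Nat.card G : ℂ) / 648 *
      toC ((c j : Zsqrtd 3) * pairSum j p q)) (fun j _ => by
        rw [map_mul, map_intCast]
        linear_combination (c j : ℂ) * hB a b p q hab hbb hp hq j),
      ← Finset.mul_sum, ← map_sum, h0, map_zero, mul_zero]
  -- the seven characters
  simp only [matchSt, Bool.and_eq_true, List.all_eq_true, beq_iff_eq] at hmatch
  obtain ⟨hproj, huniq⟩ := hmatch
  have hpick : ∀ w ∈ wanted, ∃ a ∈ A, sel w a.col ≠ 0 ∧ ∀ F : Atom (IrrCharacter G) → ℂ,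
      (A.map fun c => (sel w c.col : ℂ) * F c).sum = (sel w a.col : ℂ) * F a := by
    intro w hw
    have h1 := huniq w hw
    rw [← hcols, List.filter_map, List.length_map, List.length_eq_one_iff] at h1
    obtain ⟨a, ha⟩ := h1
    obtain ⟨ha1, ha2⟩ := List.mem_filter.mp (ha ▸ List.mem_singleton_self a : a ∈ A.filter _)
    simp only [Function.comp_apply, bne_iff_ne, ne_eq] at ha2
    refine ⟨a, ha1, ha2, fun F => sum_single_of_filter A _ _ ha fun b _ hb => ?_⟩
    simp only [Function.comp_apply, bne_eq_false_iff_eq] at hb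
    rw [hb, Int.cast_zero, zero_mul]
  have hbase : ∀ (i : ℕ), i < 4 → ∀ F : Atom (IrrCharacter G) → ℂ,
      (A.map fun c => (c.col.getD (basePos.getD i 0) 0 : ℂ) * F c).sum =
        (wanted.map fun w => (w.getD i 0 : ℂ) *
          (A.map fun c => (sel w c.col : ℂ) * F c).sum).sum := by
    intro i hi F
    have hcol : ∀ c ∈ A, c.col.getD (basePos.getD i 0) 0 =
        (wanted.map fun w => sel w c.col * w.getD i 0).sum := by
      intro c hc
      have h := congrArg (fun l => l.getD i 0) (hproj c.col (hcols ▸ List.mem_map.mpr ⟨c, hc, rfl⟩))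
      interval_cases i <;> simpa [proj, basePos, List.range_succ] using h
    rw [List.map_congr_left fun c hc => show _ =
        (wanted.map fun w => (w.getD i 0 : ℂ) * ((sel w c.col : ℂ) * F c)).sum from by
      rw [hcol c hc]
      simp only [wanted, List.map_cons, List.map_nil, List.sum_cons, List.sum_nil]
      push_cast
      ring]
    simp only [wanted, List.map_cons, List.map_nil, List.sum_cons, List.sum_nil, add_zero]
    simp only [List.sum_map_add, List.sum_map_mul_left]
  obtain ⟨a2, h2A, h2s, h2⟩ := hpick [0, 1, 1, 0] (by simp [wanted])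
  obtain ⟨a3, h3A, h3s, h3⟩ := hpick [1, 0, 0, 1] (by simp [wanted])
  obtain ⟨a4, h4A, h4s, h4⟩ := hpick [1, 0, 1, 0] (by simp [wanted])
  obtain ⟨a5, h5A, h5s, h5⟩ := hpick [0, 0, -1, 0] (by simp [wanted])
  obtain ⟨a6, h6A, h6s, h6⟩ := hpick [-1, 1, 0, 0] (by simp [wanted])
  obtain ⟨a9, h9A, h9s, h9⟩ := hpick [0, 0, 0, -1] (by simp [wanted])
  obtain ⟨a12, h12A, h12s, h12⟩ := hpick [0, -1, 0, 1] (by simp [wanted])
  have hsel : ∀ w col, sel w col ≠ 0 → sel w col = 1 ∨ sel w col = -1 := by
    intro w col h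
    unfold sel at h ⊢
    split_ifs at h ⊢ <;> simp_all
  let X : Atom (IrrCharacter G) → List ℤ → G → ℂ := fun a w g => (sel w a.col : ℂ) * av a g
  have hdegX : ∀ a ∈ A, ∀ w, sel w a.col ≠ 0 → ∃ n : ℤ, n ≠ 0 ∧ X a w 1 = n := by
    intro a ha w hw
    obtain ⟨n, hn, hn'⟩ := hdeg a ha
    exact ⟨sel w a.col * n, mul_ne_zero hw hn, by simp [X, hn']⟩
  have hrat : ∀ a : Atom (IrrCharacter G), ∀ w, sel w a.col ≠ 0 → ∀ x y : G,
      (sel w a.col : ℂ) * (av a x * av a y / av a 1) = X a w x * X a w y / X a w 1 := by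
    intro a w hw x y
    rcases hsel w a.col hw with h | h <;> simp [X, h, neg_div, div_neg]
  obtain ⟨Q, hQ, hQe⟩ := hdegX a2 h2A _ h2s
  obtain ⟨P, hP, hPe⟩ := hdegX a3 h3A _ h3s
  obtain ⟨R, hR, hRe⟩ := hdegX a4 h4A _ h4s
  obtain ⟨D5, hD5, hD5e⟩ := hdegX a5 h5A _ h5s
  obtain ⟨D6, hD6, hD6e⟩ := hdegX a6 h6A _ h6s
  obtain ⟨D9, hD9, hD9e⟩ := hdegX a9 h9A _ h9s
  obtain ⟨D12, hD12, hD12e⟩ := hdegX a12 h12A _ h12s
  -- the four relations
  have hrel : ∀ g : G, (∀ j, Theta e j g = 0) →
      X a6 [-1, 1, 0, 0] g = X a3 [1, 0, 0, 1] g + X a4 [1, 0, 1, 0] g ∧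
      X a12 [0, -1, 0, 1] g = X a2 [0, 1, 1, 0] g + X a6 [-1, 1, 0, 0] g ∧
      X a5 [0, 0, -1, 0] g = 1 + X a2 [0, 1, 1, 0] g + X a4 [1, 0, 1, 0] g ∧
      X a9 [0, 0, 0, -1] g = 1 + X a3 [1, 0, 0, 1] g + X a12 [0, -1, 0, 1] g := by
    intro g hg0
    have r : ∀ (i : ℕ) (j : Fin 9), i < 4 → basePos.getD i 0 = j.val →
        (oneCoef j.val : ℂ) + (wanted.map fun w => (w.getD i 0 : ℂ) *
          (A.map fun c => (sel w c.col : ℂ) * av c g).sum).sum = 0 := by
      intro i j hi hij
      rw [← hbase i hi fun c => av c g, hij, ← hTheta j g, hg0]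
    have r1 := r 0 2 (by norm_num) rfl
    have r2 := r 1 3 (by norm_num) rfl
    have r3 := r 2 4 (by norm_num) rfl
    have r4 := r 3 6 (by norm_num) rfl
    simp only [wanted, List.map_cons, List.map_nil, List.sum_cons, List.sum_nil, h2, h3, h4, h5, h6,
      h9, h12, oneCoef, oneList, List.getD_cons_zero, List.getD_cons_succ] at r1 r2 r3 r4
    norm_num at r1 r2 r3 r4
    refine ⟨?_, ?_, ?_, ?_⟩ <;> simp only [X]
    · linear_combination -r1
    · linear_combination -r2
    · linear_combination -r3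
    · linear_combination -r4
  obtain ⟨d6, d12, d5, d9⟩ := hrel 1 Theta_apply_one
  simp only [hQe, hPe, hRe, hD5e, hD6e, hD9e, hD12e] at d6 d12 d5 d9
  obtain ⟨z6, z12, z5, z9⟩ := hrel (emb e zN) fun j =>
    Theta_invol j (by rw [← map_mul, hz2, map_one])
  obtain ⟨w6, w12, w5, w9⟩ := hrel (emb e wN) fun j =>
    Theta_invol j (by rw [← map_mul, hw2, map_one])
  have hBx : ∀ (i : ℕ) (j : Fin 9), i < 4 → basePos.getD i 0 = j.val → ∀ x y : G,
      B x y j = (oneCoef j.val : ℂ) + (wanted.map fun w => (w.getD i 0 : ℂ) *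
          (A.map fun c => (sel w c.col : ℂ) * (av c x * av c y / av c 1)).sum).sum := by
    intro i j hi hij x y
    rw [← hbase i hi fun c => av c x * av c y / av c 1, hij]
  have b2 := hBx 0 2 (by norm_num) rfl
  have b3 := hBx 1 3 (by norm_num) rfl
  have b4 := hBx 2 4 (by norm_num) rfl
  have b6 := hBx 3 6 (by norm_num) rfl
  simp only [wanted, List.map_cons, List.map_nil, List.sum_cons, List.sum_nil, h2, h3, h4, h5, h6,
    h9, h12, hrat _ _ h2s, hrat _ _ h3s, hrat _ _ h4s, hrat _ _ h5s, hrat _ _ h6s, hrat _ _ h9s,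
    hrat _ _ h12s, oneCoef, oneList, List.getD_cons_zero, List.getD_cons_succ, hQe, hPe, hRe,
    hD5e, hD6e, hD9e, hD12e] at b2 b3 b4 b6
  obtain ⟨p1, p2, p3, p4, p5, p6, p7⟩ := pair_sums
  have Z : zN = zN ∨ zN = wN := Or.inl rfl
  have W : wN = zN ∨ wN = wN := Or.inr rfl
  have E1 := hcombo zN zN 2 2 ![0, 0, 1, 0, 0, 0, 0, 0, 0] Z Z hzc hzc
    (by simpa [Fin.sum_univ_succ] using p1)
  have E2 := hcombo wN wN 6 6 ![0, 0, 0, 1, 0, 0, 0, 0, 0] W W hwc hwc
    (by simpa [Fin.sum_univ_succ] using p2)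
  have E3 := hcombo zN zN 2 2 ![0, 0, 0, -1, 1, 0, 0, 0, 0] Z Z hzc hzc
    (by simp [Fin.sum_univ_succ]; linear_combination p3)
  have E4 := hcombo zN zN 2 2 ![0, 0, 0, 1, -2, 0, 2, 0, 0] Z Z hzc hzc
    (by simp [Fin.sum_univ_succ]; linear_combination p4)
  have E5 := hcombo wN wN 6 6 ![0, 0, -2, 0, 1, 0, 0, 0, 0] W W hwc hwc
    (by simp [Fin.sum_univ_succ]; linear_combination p5)
  have E6 := hcombo wN wN 6 6 ![0, 0, -3, 0, 0, 0, 2, 0, 0] W W hwc hwc
    (by simp [Fin.sum_univ_succ]; linear_combination p6)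
  have E7 := hcombo zN wN 2 6 ![0, 0, 0, 0, 1, 0, -2, 0, 0] Z W hzc hwc
    (by simp [Fin.sum_univ_succ]; linear_combination p7)
  have hI6 : D6 = P + R := by exact_mod_cast d6
  have hI12 : D12 = Q + D6 := by exact_mod_cast d12
  have hI5 : D5 = 1 + Q + R := by exact_mod_cast d5
  have hI9 : D9 = 1 + P + D12 := by exact_mod_cast d9
  subst hI6 hI5
  subst hI12
  subst hI9
  simp only [Fin.sum_univ_succ, Fin.sum_univ_zero] at E1 E2 E3 E4 E5 E6 E7
  simp [b2, b3, b4, b6, z6, z12, z5, z9, w6, w12, w5, w9] at E1 E2 E3 E4 E5 E6 E7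
  have hsol := solve (x2 := X a2 [0, 1, 1, 0] (emb e zN)) (x3 := X a3 [1, 0, 0, 1] (emb e zN))
    (x4 := X a4 [1, 0, 1, 0] (emb e zN)) (y2 := X a2 [0, 1, 1, 0] (emb e wN))
    (y3 := X a3 [1, 0, 0, 1] (emb e wN)) (y4 := X a4 [1, 0, 1, 0] (emb e wN))
    hP hQ hR hD5 (by intro h; exact hD9 (by linear_combination h))
    (by intro h; exact hD12 (by linear_combination h)) hD6
    (by push_cast; linear_combination E1) (by push_cast; linear_combination E2)
    (by push_cast; linear_combination E3) (by push_cast; linear_combination E4)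
    (by push_cast; linear_combination E5) (by push_cast; linear_combination E6)
    (by push_cast; linear_combination E7)
  refine ⟨a2.p, ?_, ?_⟩
  · rw [hm]
    have hv : m 3 a2.p = a2.s * a2.col.getD 3 0 := by
      rw [← hmN 3, (hval ((3 : Fin 9) : ℕ) (3 : Fin 9).2).2 a2.p (hA a2 h2A).1, value_at hnd h2A]
      rfl
    rw [hv]
    refine Int.cast_ne_zero.mpr (mul_ne_zero ?_ ?_)
    · intro h
      have := (hA a2 h2A).2.1
      rw [h] at this
      norm_num at this
    · intro h
      apply h2s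
      simp [sel, proj, basePos] at h ⊢
      grind
  · have hc : (sel [0, 1, 1, 0] a2.col : ℂ) * (a2.s : ℂ) ≠ 0 := by
      refine mul_ne_zero (Int.cast_ne_zero.mpr h2s) (Int.cast_ne_zero.mpr fun h => ?_)
      have := (hA a2 h2A).2.1
      rw [h] at this
      norm_num at this
    rcases hsol with h | h
    · left
      rw [← hQe] at h
      refine mul_left_cancel₀ hc ?_
      simp only [X, av] at h
      linear_combination h
    · right
      rw [← hQe] at h
      refine mul_left_cancel₀ hc ?_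
      simp only [X, av] at h
      linear_combination h

end Cfsg.Agent.AltNine
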