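import Cfsg.Agent.AltNine.Data

/-!
Finite facts about the model and the tabulated class functions.
-/

set_option autoImplicit false

namespace Cfsg.Agent.AltNine

/-- The power basis coordinates of `ζ ^ k`, `ζ` a primitive twelfth root of unity. -/
def rootVec (k : ℕ) : ℤ × ℤ × ℤ × ℤ :=
  [(1, 0, 0, 0), (0, 1, 0, 0), (0, 0, 1, 0), (0, 0, 0, 1), (-1, 0, 1, 0), (0, -1, 0, 1),
    (-1, 0, 0, 0), (0, -1, 0, 0), (0, 0, -1, 0), (0, 0, 0, -1), (1, 0, -1, 0),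
    (0, 1, 0, -1)].getD k (0, 0, 0, 0)

/-- A form on translations. -/
def dotForm (a v : Fin 27) : ℕ :=
  (a.val % 3 * (v.val % 3) + a.val / 3 % 3 * (v.val / 3 % 3) + a.val / 9 * (v.val / 9)) % 3

/-- The data of the character `i`. -/
def mono (i : Fin 14) : Fin 27 × ℕ × List (Fin 24) := monoData.getD i.val (0, 0, [])

/-- The exponent of the linear character on the stabiliser, `12` outside. -/
def expo (i : Fin 14) (s : Fin 24) : ℕ := tb (mono i).2.1 s.val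

/-- The coordinates of the linear character extended by zero. -/
def extVec (i : Fin 14) (a : NH) : ℤ × ℤ × ℤ × ℤ :=
  if expo i a.s < 12 then rootVec ((4 * dotForm (mono i).1 a.v + expo i a.s) % 12) else (0, 0, 0, 0)

/-- The tabulated value of the character `i`. -/
def charVal (i : Fin 14) (a : NH) : ℤ × ℤ := (charTab.getD i.val []).getD (cls a) (0, 0)

/-- The tabulated value of the class function `j`. -/
def thetaVal (j : Fin 9) (a : NH) : Zsqrtd 3 :=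
  let p := (thetaTab.getD j.val []).getD (cls a) (0, 0)
  ⟨p.1, p.2⟩

/-- The transversal element. -/
def tvec (t : Fin 24) : NH := ⟨0, t⟩

theorem mono_val : ∀ i : Fin 14, ∀ v s,
    ((mono i).2.2.map fun t => extVec i ((tvec t)⁻¹ * ⟨v, s⟩ * tvec t)).sum =
      ((charVal i ⟨v, s⟩).1, 2 * (charVal i ⟨v, s⟩).2, 0, -(charVal i ⟨v, s⟩).2) := by
  decide +kernel

theorem expo_one : ∀ i : Fin 14, expo i 0 = 0 := by decide +kernel

theorem expo_mul : ∀ i : Fin 14, ∀ s t, expo i s < 12 → expo i t < 12 →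
    expo i (smul s t) = (expo i s + expo i t) % 12 := by decide +kernel

theorem dotForm_act : ∀ i : Fin 14, ∀ s v, expo i s < 12 →
    dotForm (mono i).1 (act s v) = dotForm (mono i).1 v := by decide +kernel

theorem dotForm_add : ∀ i : Fin 14, ∀ v w,
    dotForm (mono i).1 (add v w) = (dotForm (mono i).1 v + dotForm (mono i).1 w) % 3 := by
  decide +kernel

theorem expo_sinv : ∀ i : Fin 14, ∀ s, expo i s < 12 → expo i (sinv s) < 12 := by decide +kernel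

theorem transversal : ∀ i : Fin 14, (mono i).2.2.Nodup ∧ ∀ s : Fin 24,
    ((mono i).2.2.filter fun t => decide (expo i (smul (sinv t) s) < 12)).length = 1 := by
  decide +kernel

theorem cls_lt : ∀ v s, cls ⟨v, s⟩ < 14 := by decide +kernel

theorem theta_coef : ∀ j : Fin 9, ∀ k : Fin 14,
    (thetaTab.getD j.val []).getD k.val (0, 0) =
      ((thetaCoef.getD j.val []).map fun p =>
        (p.1 * ((charTab.getD p.2.val []).getD k.val (0, 0)).1,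
          p.1 * ((charTab.getD p.2.val []).getD k.val (0, 0)).2)).sum := by decide +kernel

theorem theta_gram : ∀ i j : Fin 9, j.val ≤ i.val →
    ∑ a : NH, thetaVal i a * thetaVal j a = (648 * gram i.val j.val : ℤ) := by decide +kernel

theorem theta_one : ∀ j : Fin 9, ∑ a : NH, thetaVal j a = (648 * oneCoef j.val : ℤ) := by
  decide +kernel

/-- A non-trivial power lies in the translations. -/
def InA (a : NH) : Prop :=
  (a * a * a * a ≠ 1 ∧ (a * a * a * a).s = 0) ∨ (a * a * a ≠ 1 ∧ (a * a * a).s = 0)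

instance instDecidablePred_inA : DecidablePred InA := fun a =>
  inferInstanceAs (Decidable (_ ∨ _))

theorem theta_supp : ∀ j : Fin 9, ∀ v s, thetaVal j ⟨v, s⟩ ≠ 0 → InA ⟨v, s⟩ := by decide +kernel

/-- The involution of the first class. -/
def zN : NH := ⟨0, 1⟩

/-- The involution of the second class. -/
def wN : NH := ⟨0, 6⟩

/-- An element of order six over the first class. -/
def g5N : NH := ⟨9, 5⟩

/-- An element of order six over the second class. -/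
def g7N : NH := ⟨3, 6⟩

theorem special_elems : zN * zN = 1 ∧ zN ≠ 1 ∧ wN * wN = 1 ∧ wN ≠ 1 ∧ cls zN = 2 ∧ cls wN = 6 ∧
    g5N ^ 6 = 1 ∧ g7N ^ 6 = 1 ∧ cls (g5N ^ 3) = 2 ∧ cls (g7N ^ 3) = 6 := by decide +kernel

theorem sq_eq_one : ∀ v s, (⟨v, s⟩ : NH) * ⟨v, s⟩ = 1 →
    (⟨v, s⟩ : NH) = 1 ∨ cls ⟨v, s⟩ = 2 ∨ cls ⟨v, s⟩ = 6 := by decide +kernel

theorem conj_two : ∀ v s, cls ⟨v, s⟩ = 2 → ∃ w t, (⟨w, t⟩ : NH) * zN * (⟨w, t⟩)⁻¹ = ⟨v, s⟩ := by
  decide +kernel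

theorem conj_six : ∀ v s, cls ⟨v, s⟩ = 6 → ∃ w t, (⟨w, t⟩ : NH) * wN * (⟨w, t⟩)⁻¹ = ⟨v, s⟩ := by
  decide +kernel

theorem conj_five : ∀ v s, cls ⟨v, s⟩ = 5 → ∃ w t, (⟨w, t⟩ : NH) * g5N * (⟨w, t⟩)⁻¹ = ⟨v, s⟩ := by
  decide +kernel

theorem conj_seven : ∀ v s, cls ⟨v, s⟩ = 7 → ∃ w t, (⟨w, t⟩ : NH) * g7N * (⟨w, t⟩)⁻¹ = ⟨v, s⟩ := by
  decide +kernel

/-- The coefficients of `η₅`. -/
def eta5Coef : List ℤ := [-1, 0, -2, 0, 1, 0, 0, 1, 0]

/-- The coefficients of `η₇`. -/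
def eta7Coef : List ℤ := [0, 0, 0, 0, 0, 0, 1, 0, -1]

theorem eta5_val : ∀ v s, ∑ j : Fin 9, (eta5Coef.getD j.val 0 : Zsqrtd 3) * thetaVal j ⟨v, s⟩ =
    if cls ⟨v, s⟩ = 5 then 12 else 0 := by decide +kernel

theorem eta7_val : ∀ v s, ∑ j : Fin 9, (eta7Coef.getD j.val 0 : Zsqrtd 3) * thetaVal j ⟨v, s⟩ =
    if cls ⟨v, s⟩ = 7 then 6 else 0 := by decide +kernel

theorem card_five : (Finset.univ.filter fun a : NH => cls a = 5).card = 54 := by decide +kernel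

theorem card_seven : (Finset.univ.filter fun a : NH => cls a = 7).card = 108 := by decide +kernel

/-- The sum of the class function `j` over the products of the classes `p` and `q`. -/
def pairSum (j : Fin 9) (p q : ℕ) : Zsqrtd 3 :=
  ∑ a ∈ Finset.univ.filter (fun a : NH => cls a = p),
    ∑ b ∈ Finset.univ.filter (fun b : NH => cls b = q), thetaVal j (a * b)

theorem pair_sums : pairSum 2 2 2 = 0 ∧ pairSum 3 6 6 = 0 ∧ pairSum 4 2 2 - pairSum 3 2 2 = 0 ∧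
    pairSum 3 2 2 - 2 * pairSum 4 2 2 + 2 * pairSum 6 2 2 = 0 ∧
    pairSum 4 6 6 - 2 * pairSum 2 6 6 = 0 ∧
    2 * pairSum 6 6 6 - 3 * pairSum 2 6 6 = 0 ∧
    pairSum 4 2 6 - 2 * pairSum 6 2 6 = 0 := by decide +kernel

theorem translation_order : ∀ v : Fin 27, v ≠ 0 → (⟨v, 0⟩ : NH) ^ 3 = 1 := by decide +kernel

/-- The size of a centraliser in the model. -/
def centSize (v : Fin 27) : ℕ :=
  (Finset.univ.filter fun a : NH => a * ⟨v, 0⟩ = ⟨v, 0⟩ * a).card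

/-- The representative translation with a given centraliser size. -/
def repOf (n : ℕ) : Fin 27 := if n = 108 then 1 else if n = 54 then 4 else 13

theorem conj_translation : ∀ v : Fin 27, v ≠ 0 →
    ∃ w t, (⟨w, t⟩ : NH) * ⟨repOf (centSize v), 0⟩ * (⟨w, t⟩)⁻¹ = ⟨v, 0⟩ := by decide +kernel

theorem not_pGroup : ∀ v s, s ≠ 0 → (⟨v, s⟩ : NH) ^ 81 ≠ 1 ∨
    ∃ w t, ((⟨v, s⟩ : NH) * ((⟨w, t⟩ : NH) * ⟨v, s⟩ * (⟨w, t⟩)⁻¹)) ^ 81 ≠ 1 := by decide +kernel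

theorem conj_s : ∀ w t v, ((⟨w, t⟩ : NH) * ⟨v, 0⟩ * (⟨w, t⟩)⁻¹).s = 0 := by decide +kernel

theorem cube_kerV : ∀ v s, (⟨v, s⟩ : NH) ^ 3 = 1 → (s = 0 ∨ s = 1 ∨ s = 4 ∨ s = 5) → s = 0 := by
  decide +kernel

/-- The element number `k` in the list of involutions of the first class. -/
def invTwo (k : ℕ) : NH :=
  ⟨⟨tb inv2v k % 27, Nat.mod_lt _ (by norm_num)⟩, ⟨tb inv2s k % 24, Nat.mod_lt _ (by norm_num)⟩⟩

/-- The position of a sign change. -/
def vPos (s : Fin 24) : ℕ := if s = 0 then 0 else if s = 1 then 1 else if s = 4 then 2 else 3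

/-- The four factors of an element over the four group. -/
def factor (v : Fin 27) (s : Fin 24) (i : ℕ) : NH :=
  invTwo (tb witT ((v.val * 4 + vPos s) * 4 + i))

theorem kerV_factor : ∀ v s, (s = 0 ∨ s = 1 ∨ s = 4 ∨ s = 5) →
    cls (factor v s 0) = 2 ∧ cls (factor v s 1) = 2 ∧ cls (factor v s 2) = 2 ∧
      cls (factor v s 3) = 2 ∧
      factor v s 0 * factor v s 1 * factor v s 2 * factor v s 3 = ⟨v, s⟩ := by decide +kernel

theorem two_of_six : ∃ v s w t, cls ⟨v, s⟩ = 6 ∧ cls ⟨w, t⟩ = 6 ∧ cls ((⟨v, s⟩ : NH) * ⟨w, t⟩) = 2 := by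
  decide +kernel

/-- The signed permutations of even sign. -/
def IsEven' (s : Fin 24) : Prop := s.val ∈ [0, 1, 4, 5, 10, 11, 14, 15, 16, 17, 20, 21]

instance instDecidablePred_isEven' : DecidablePred IsEven' := fun s =>
  inferInstanceAs (Decidable (_ ∈ _))

theorem isEven_smul : ∀ s t, IsEven' (smul s t) ↔ (IsEven' s ↔ IsEven' t) := by decide +kernel

theorem reach_even : ∀ v s, ¬ (s = 0 ∨ s = 1 ∨ s = 4 ∨ s = 5) → ∃ w t,
    ¬ (((⟨v, s⟩ : NH) * ((⟨w, t⟩ : NH) * (⟨v, s⟩ : NH)⁻¹ * (⟨w, t⟩)⁻¹)).s = 0 ∨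
      ((⟨v, s⟩ : NH) * ((⟨w, t⟩ : NH) * (⟨v, s⟩ : NH)⁻¹ * (⟨w, t⟩)⁻¹)).s = 1 ∨
      ((⟨v, s⟩ : NH) * ((⟨w, t⟩ : NH) * (⟨v, s⟩ : NH)⁻¹ * (⟨w, t⟩)⁻¹)).s = 4 ∨
      ((⟨v, s⟩ : NH) * ((⟨w, t⟩ : NH) * (⟨v, s⟩ : NH)⁻¹ * (⟨w, t⟩)⁻¹)).s = 5) ∧
      IsEven' ((⟨v, s⟩ : NH) * ((⟨w, t⟩ : NH) * (⟨v, s⟩ : NH)⁻¹ * (⟨w, t⟩)⁻¹)).s ∨
      IsEven' s := by decide +kernel

/-- The sign changes. -/
def IsV (s : Fin 24) : Prop := s = 0 ∨ s = 1 ∨ s = 4 ∨ s = 5

instance instDecidablePred_isV : DecidablePred IsV := fun s =>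
  inferInstanceAs (Decidable (_ ∨ _))

theorem even_split : ∀ s, IsEven' s → ¬ IsV s → ∀ t, IsEven' t →
    IsV t ∨ IsV (smul (sinv s) t) ∨ IsV (smul s t) := by decide +kernel

theorem theta_even_sums : ∑ a ∈ Finset.univ.filter (fun a : NH => IsEven' a.s), thetaVal 3 a = 0 ∧
    ∑ a ∈ Finset.univ.filter (fun a : NH => ¬ IsEven' a.s), thetaVal 3 a = 0 := by decide +kernel

end Cfsg.Agent.AltNine
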