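import Cfsg.Agent.AltNine.Finite
import Cfsg.Agent.OddChar.Virtual
import Cfsg.Agent.Chars.Induced
import Cfsg.Agent.Chars.Linear
import Mathlib.RingTheory.RootsOfUnity.Complex

/-!
The tabulated class functions of the model are generalised characters.
-/

set_option autoImplicit false

open Cfsg
open scoped ComplexConjugate

namespace Cfsg.Agent.AltNine

/-- A primitive twelfth root of unity. -/
noncomputable def rt : ℂ := Complex.exp (2 * Real.pi * Complex.I / (12 : ℕ))

theorem rt_prim : IsPrimitiveRoot rt 12 := Complex.isPrimitiveRoot_exp 12 (by norm_num)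

theorem rt_six : rt ^ 6 = -1 := by
  have h : (rt ^ 6) ^ 2 = 1 := by rw [← pow_mul]; exact rt_prim.pow_eq_one
  rcases sq_eq_one_iff.mp h with h1 | h1
  · exact absurd h1 (rt_prim.pow_ne_one_of_pos_of_lt (by norm_num) (by norm_num))
  · exact h1

theorem rt_four : rt ^ 4 = rt ^ 2 - 1 := by
  have h2 : rt ^ 2 + 1 ≠ 0 := fun h =>
    rt_prim.pow_ne_one_of_pos_of_lt (by norm_num : (4 : ℕ) ≠ 0) (by norm_num)
      (by linear_combination (rt ^ 2 - 1) * h)
  refine sub_eq_zero.mp ((mul_eq_zero.mp (?_ : (rt ^ 2 + 1) * _ = 0)).resolve_left h2)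
  linear_combination rt_six

/-- The square root of three. -/
noncomputable def r3 : ℂ := 2 * rt - rt ^ 3

theorem r3_mul : r3 * r3 = ((3 : ℤ) : ℂ) := by
  rw [r3]; push_cast
  linear_combination -4 * rt_four + rt_six

theorem conj_r3 : conj r3 = r3 := by
  have h : (r3 - (Real.sqrt 3 : ℂ)) * (r3 + (Real.sqrt 3 : ℂ)) = 0 := by
    have hs : ((Real.sqrt 3 : ℂ)) * (Real.sqrt 3 : ℂ) = 3 := by
      rw [← Complex.ofReal_mul, Real.mul_self_sqrt (by norm_num)]; norm_num
    have := r3_mul
    push_cast at this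
    linear_combination this - hs
  rcases mul_eq_zero.mp h with h' | h'
  · rw [sub_eq_zero.mp h', Complex.conj_ofReal]
  · rw [eq_neg_of_add_eq_zero_left h', map_neg, Complex.conj_ofReal]

/-- The values as complex numbers. -/
noncomputable def toC : Zsqrtd 3 →+* ℂ := Zsqrtd.lift ⟨r3, r3_mul⟩

theorem toC_apply (x : Zsqrtd 3) : toC x = (x.re : ℂ) + (x.im : ℂ) * r3 := rfl

theorem conj_toC (x : Zsqrtd 3) : conj (toC x) = toC x := by
  rw [toC_apply, map_add, map_mul, map_intCast, map_intCast, conj_r3]

theorem toC_eq_zero {x : Zsqrtd 3} (h : x = 0) : toC x = 0 := by rw [h, map_zero]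

/-- A coordinate vector as a number. -/
noncomputable def evalVec : ℤ × ℤ × ℤ × ℤ →+ ℂ where
  toFun p := (p.1 : ℂ) + (p.2.1 : ℂ) * rt + (p.2.2.1 : ℂ) * rt ^ 2 + (p.2.2.2 : ℂ) * rt ^ 3
  map_zero' := by simp
  map_add' p q := by simp only [Prod.fst_add, Prod.snd_add]; push_cast; ring

theorem evalVec_apply (p : ℤ × ℤ × ℤ × ℤ) :
    evalVec p = (p.1 : ℂ) + (p.2.1 : ℂ) * rt + (p.2.2.1 : ℂ) * rt ^ 2 + (p.2.2.2 : ℂ) * rt ^ 3 :=
  rfl

theorem evalVec_root {k : ℕ} (hk : k < 12) : evalVec (rootVec k) = rt ^ k := by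
  have h4 := rt_four
  have h6 := rt_six
  interval_cases k <;>
    simp only [evalVec_apply, rootVec, List.getD_cons_zero, List.getD_cons_succ] <;> push_cast
  · ring
  · ring
  · ring
  · ring
  · linear_combination -h4
  · linear_combination -rt * h4
  · linear_combination -h6
  · linear_combination -rt * h6
  · linear_combination -rt ^ 2 * h6
  · linear_combination -rt ^ 3 * h6
  · linear_combination -rt ^ 4 * h6 + h4
  · linear_combination -rt ^ 5 * h6 + rt * h4

theorem evalVec_target (p : ℤ × ℤ) :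
    evalVec (p.1, 2 * p.2, 0, -p.2) = toC ⟨p.1, p.2⟩ := by
  rw [evalVec_apply, toC_apply, r3]; push_cast; ring

theorem rt_mod (n : ℕ) : rt ^ (n % 12) = rt ^ n := by
  conv_rhs => rw [← Nat.mod_add_div n 12, pow_add, pow_mul, rt_prim.pow_eq_one, one_pow, mul_one]

/-- The subgroup from which the character `i` is induced. -/
def monoSub (i : Fin 14) : Subgroup NH where
  carrier := {a | expo i a.s < 12}
  one_mem' := show expo i 0 < 12 by rw [expo_one]; norm_num
  mul_mem' {a b} ha hb := show expo i (smul a.s b.s) < 12 by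
    rw [expo_mul i a.s b.s ha hb]; exact Nat.mod_lt _ (by norm_num)
  inv_mem' {a} ha := expo_sinv i a.s ha

theorem mem_monoSub {i : Fin 14} {a : NH} : a ∈ monoSub i ↔ expo i a.s < 12 := Iff.rfl

/-- The exponent of the linear character. -/
def lamExp (i : Fin 14) (a : NH) : ℕ := (4 * dotForm (mono i).1 a.v + expo i a.s) % 12

/-- The linear character. -/
noncomputable def lam (i : Fin 14) : monoSub i →* ℂ where
  toFun a := rt ^ lamExp i a
  map_one' := by
    have h : ∀ i : Fin 14, lamExp i 1 = 0 := by decide +kernel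
    show rt ^ lamExp i 1 = 1
    rw [h, pow_zero]
  map_mul' a b := by
    show rt ^ lamExp i ((a : NH) * b) = rt ^ lamExp i a * rt ^ lamExp i b
    simp only [lamExp, NH.mul_def]
    rw [rt_mod, rt_mod, rt_mod, ← pow_add, ← rt_mod, dotForm_add, dotForm_act i _ _ a.2,
      expo_mul i _ _ a.2 b.2, ← rt_mod (_ + _ + _)]
    congr 1
    omega

/-- The induced character. -/
noncomputable def monoChar (i : Fin 14) : NH → ℂ :=
  indFun (monoSub i) fun a => ((lam i).toHomUnits a : ℂ)

theorem isCharacter_monoChar (i : Fin 14) : IsCharacter NH (monoChar i) :=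
  Chars.isCharacter_indFun _ (Chars.isCharacter_hom _)

theorem ext_eq (i : Fin 14) (a : NH) :
    extendByZero (monoSub i) (fun b => ((lam i).toHomUnits b : ℂ)) a = evalVec (extVec i a) := by
  unfold extVec
  by_cases h : a ∈ monoSub i
  · rw [Chars.extendByZero_of_mem _ _ h, if_pos (mem_monoSub.mp h), MonoidHom.coe_toHomUnits,
      evalVec_root (Nat.mod_lt _ (by norm_num))]
    rfl
  · rw [Chars.extendByZero_of_not_mem _ _ h, if_neg (mt mem_monoSub.mpr h)]
    exact (map_zero evalVec).symm

theorem monoChar_eq (i : Fin 14) (a : NH) :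
    monoChar i a = toC ⟨(charVal i a).1, (charVal i a).2⟩ := by
  classical
  set θ : monoSub i → ℂ := fun b => ((lam i).toHomUnits b : ℂ) with hθ
  set f : NH → ℂ := fun x => extendByZero (monoSub i) θ (x⁻¹ * a * x) with hf
  obtain ⟨hnd, hone⟩ := transversal i
  set T : Finset (Fin 24) := (mono i).2.2.toFinset with hT
  have hfix : ∀ x : NH, ∀ u ∈ monoSub i, f (x * u) = f x := by
    intro x u hu
    simp only [hf, mul_inv_rev]
    rw [show u⁻¹ * x⁻¹ * a * (x * u) = u⁻¹ * (x⁻¹ * a * x) * u by group]
    by_cases hy : x⁻¹ * a * x ∈ monoSub i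
    · rw [Chars.extendByZero_of_mem _ _ hy,
        Chars.extendByZero_of_mem _ _ (mul_mem (mul_mem (inv_mem hu) hy) hu)]
      simp only [hθ]
      rw [show (⟨u⁻¹ * (x⁻¹ * a * x) * u, mul_mem (mul_mem (inv_mem hu) hy) hu⟩ : monoSub i) =
        ⟨u, hu⟩⁻¹ * ⟨_, hy⟩ * ⟨u, hu⟩ from rfl, map_mul, map_mul, map_inv, mul_comm _⁻¹,
        inv_mul_cancel_right]
    · rw [Chars.extendByZero_of_not_mem _ _ hy, Chars.extendByZero_of_not_mem]
      intro h
      apply hy
      have := mul_mem (mul_mem hu h) (inv_mem hu)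
      simpa [mul_assoc] using this
  have hsplit : ∑ x, f x = ∑ t ∈ T, ∑ x, if (tvec t)⁻¹ * x ∈ monoSub i then f x else 0 := by
    rw [Finset.sum_comm]
    refine Finset.sum_congr rfl fun x _ => ?_
    obtain ⟨t, ht⟩ := List.length_eq_one_iff.mp (hone x.s)
    rw [← Finset.sum_filter]
    have : T.filter (fun t => (tvec t)⁻¹ * x ∈ monoSub i) = {t} := by
      ext u
      rw [Finset.mem_filter, Finset.mem_singleton, hT, List.mem_toFinset, ← List.mem_singleton,
        ← ht, List.mem_filter, decide_eq_true_eq]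
      rfl
    rw [this, Finset.sum_singleton]
  have hcoset : ∀ t, (∑ x, if (tvec t)⁻¹ * x ∈ monoSub i then f x else 0) =
      (Nat.card (monoSub i) : ℂ) * f (tvec t) := by
    intro t
    rw [← Equiv.sum_comp (Equiv.mulLeft (tvec t))]
    simp only [Equiv.coe_mulLeft, inv_mul_cancel_left]
    rw [← Finset.sum_filter, Finset.sum_congr rfl (g := fun _ => f (tvec t))
      (fun x hx => hfix _ x (Finset.mem_filter.mp hx).2), Finset.sum_const, nsmul_eq_mul,
      ← Fintype.card_subtype, Nat.card_eq_fintype_card]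
  rw [monoChar, Chars.indFun_apply]
  show _ * ∑ x, f x = _
  rw [hsplit, Finset.sum_congr rfl fun t _ => hcoset t, ← Finset.mul_sum, ← mul_assoc,
    inv_mul_cancel₀ (Chars.subgroup_card_ne_zero _), one_mul, hT, List.sum_toFinset _ hnd,
    List.map_congr_left fun t _ => ext_eq i ((tvec t)⁻¹ * a * tvec t)]
  have := congrArg evalVec (mono_val i a.v a.s)
  rw [map_list_sum, List.map_map, evalVec_target] at this
  exact this

/-- A tabulated class function. -/
noncomputable def thetaFun (j : Fin 9) : NH → ℂ := fun a => toC (thetaVal j a)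

theorem thetaFun_eq (j : Fin 9) (a : NH) :
    thetaFun j a = ((thetaCoef.getD j.val []).map fun p => (p.1 : ℂ) * monoChar p.2 a).sum := by
  have h := theta_coef j ⟨cls a, cls_lt a.v a.s⟩
  simp only at h
  simp only [thetaFun, thetaVal, h]
  generalize thetaCoef.getD j.val [] = L
  induction L with
  | nil => simp only [List.map_nil, List.sum_nil]; exact map_zero toC
  | cons p L ih =>
    simp only [List.map_cons, List.sum_cons, Prod.fst_add, Prod.snd_add]
    rw [← ih, monoChar_eq, toC_apply, toC_apply, toC_apply, charVal]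
    push_cast
    ring

theorem thetaFun_virt (j : Fin 9) : IsGeneralizedCharacter NH (thetaFun j) := by
  rw [show thetaFun j = fun a => ((thetaCoef.getD j.val []).map
    fun p => (p.1 : ℂ) * monoChar p.2 a).sum from funext (thetaFun_eq j)]
  generalize thetaCoef.getD j.val [] = L
  induction L with
  | nil =>
    simp only [List.map_nil, List.sum_nil]
    exact OddChar.virt_zero
  | cons p L ih =>
    simp only [List.map_cons, List.sum_cons]
    have hp : IsGeneralizedCharacter NH (fun a => (p.1 : ℂ) * monoChar p.2 a) := by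
      have := OddChar.virt_zsmul (OddChar.virt_of_char (isCharacter_monoChar p.2)) p.1
      convert this using 1
      funext a
      simp
    exact OddChar.virt_add hp ih

end Cfsg.Agent.AltNine
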