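import Cfsg.Agent.AltNine.Model
import Cfsg.Agent.OddChar.S3Cubed

/-!
The model is the group generated by the four given permutations, and contains the even triples.
-/

set_option autoImplicit false

namespace Cfsg.Agent.AltNine

/-- The four generating permutations. -/
def gensP : Fin 4 → Equiv.Perm (Fin 9) :=
  ![Equiv.swap (0 : Fin 9) 1 * Equiv.swap 1 2,
    Equiv.swap (0 : Fin 9) 3 * Equiv.swap 3 6 * (Equiv.swap (1 : Fin 9) 4 * Equiv.swap 4 7) *
      (Equiv.swap (2 : Fin 9) 5 * Equiv.swap 5 8),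
    Equiv.swap (0 : Fin 9) 1 * Equiv.swap 3 4,
    Equiv.swap (0 : Fin 9) 3 * Equiv.swap 1 4 * Equiv.swap 2 5 * Equiv.swap 6 7]

/-- The product of a word in the generators. -/
def word (l : List (Fin 4)) : Equiv.Perm (Fin 9) := (l.map gensP).prod

/-- The permutation of a translation. -/
def trans (v : Fin 27) : Equiv.Perm (Fin 9) :=
  word [0] ^ (v.val % 3) * word [3, 0, 3] ^ (v.val / 3 % 3) * word [1, 1, 0, 1] ^ (v.val / 9)

/-- The permutation of a signed block permutation. -/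
def sperm (s : Fin 24) : Equiv.Perm (Fin 9) :=
  word (([[], [1, 2, 0, 1, 0, 1], [1, 0, 0, 1, 3], [1, 2, 1, 0, 3], [1, 1, 2, 0, 1, 0], [2, 0, 3, 0, 3], [3, 1, 2, 0], [1, 0, 0, 1, 2, 0, 3, 0], [3, 1, 1, 0, 1], [0, 0, 1, 3, 1], [1], [0, 0, 3, 1, 1, 0, 3], [1, 3, 1, 2, 0], [0, 0, 1, 2, 0, 3, 0, 1], [2, 0, 1, 0], [1, 2, 0, 3, 0, 3], [1, 1], [2, 0, 1, 0, 1], [0, 0, 1, 3], [2, 1, 0, 3], [1, 2, 0, 1, 0], [0, 0, 1, 1, 2, 0], [3, 1, 1, 0], [0, 0, 1, 2, 0, 3, 0]] : List (List (Fin 4))).getD s.val [])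

theorem trans_add : ∀ v w, trans (add v w) = trans v * trans w := by decide +kernel
theorem sperm_smul : ∀ s t, sperm (smul s t) = sperm s * sperm t := by decide +kernel
theorem sperm_trans : ∀ s w, sperm s * trans w = trans (act s w) * sperm s := by decide +kernel

/-- The embedding of the model. -/
def toPerm : NH →* Equiv.Perm (Fin 9) where
  toFun a := trans a.v * sperm a.s
  map_one' := by decide +kernel
  map_mul' a b := by
    simp only [NH.mul_def, trans_add, sperm_smul]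
    rw [mul_assoc, ← mul_assoc (trans (act a.s b.v)), ← sperm_trans]
    simp only [mul_assoc]

theorem toPerm_eq_one : ∀ v s, trans v * sperm s = 1 → v = 0 ∧ s = 0 := by decide +kernel

theorem toPerm_injective : Function.Injective toPerm := by
  refine (injective_iff_map_eq_one _).mpr fun a ha => ?_
  obtain ⟨h1, h2⟩ := toPerm_eq_one a.v a.s ha
  exact NH.ext' h1 h2

theorem gensP_mem_range : ∀ k : Fin 4, ∃ v s, trans v * sperm s = gensP k := by decide +kernel

theorem closure_eq :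
    Subgroup.closure ({Equiv.swap (0 : Fin 9) 1 * Equiv.swap 1 2,
      Equiv.swap (0 : Fin 9) 3 * Equiv.swap 3 6 * (Equiv.swap (1 : Fin 9) 4 * Equiv.swap 4 7) *
        (Equiv.swap (2 : Fin 9) 5 * Equiv.swap 5 8),
      Equiv.swap (0 : Fin 9) 1 * Equiv.swap 3 4,
      Equiv.swap (0 : Fin 9) 3 * Equiv.swap 1 4 * Equiv.swap 2 5 * Equiv.swap 6 7} :
      Set (Equiv.Perm (Fin 9))) = toPerm.range := by
  refine le_antisymm ((Subgroup.closure_le _).mpr ?_) ?_
  · simp only [Set.insert_subset_iff, Set.singleton_subset_iff, SetLike.mem_coe]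
    refine ⟨?_, ?_, ?_, ?_⟩
    · obtain ⟨v, s, h⟩ := gensP_mem_range 0; exact ⟨⟨v, s⟩, h⟩
    · obtain ⟨v, s, h⟩ := gensP_mem_range 1; exact ⟨⟨v, s⟩, h⟩
    · obtain ⟨v, s, h⟩ := gensP_mem_range 2; exact ⟨⟨v, s⟩, h⟩
    · obtain ⟨v, s, h⟩ := gensP_mem_range 3; exact ⟨⟨v, s⟩, h⟩
  · rintro _ ⟨a, rfl⟩
    have hw : ∀ l : List (Fin 4), word l ∈ Subgroup.closure ({Equiv.swap (0 : Fin 9) 1 * Equiv.swap 1 2,
      Equiv.swap (0 : Fin 9) 3 * Equiv.swap 3 6 * (Equiv.swap (1 : Fin 9) 4 * Equiv.swap 4 7) *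
        (Equiv.swap (2 : Fin 9) 5 * Equiv.swap 5 8),
      Equiv.swap (0 : Fin 9) 1 * Equiv.swap 3 4,
      Equiv.swap (0 : Fin 9) 3 * Equiv.swap 1 4 * Equiv.swap 2 5 * Equiv.swap 6 7} :
      Set (Equiv.Perm (Fin 9))) := by
      intro l
      refine list_prod_mem fun x hx => ?_
      obtain ⟨k, -, rfl⟩ := List.mem_map.mp hx
      refine Subgroup.subset_closure ?_
      fin_cases k <;> simp [gensP]
    exact mul_mem (mul_mem (mul_mem (pow_mem (hw _) _) (pow_mem (hw _) _)) (pow_mem (hw _) _))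
      (hw _)

/-- The subgroup over the four group of sign changes. -/
def kerV : Subgroup NH where
  carrier := {a | a.s = 0 ∨ a.s = 1 ∨ a.s = 4 ∨ a.s = 5}
  one_mem' := Or.inl rfl
  mul_mem' {a b} := by
    have h : ∀ s t : Fin 24, (s = 0 ∨ s = 1 ∨ s = 4 ∨ s = 5) → (t = 0 ∨ t = 1 ∨ t = 4 ∨ t = 5) →
        (smul s t = 0 ∨ smul s t = 1 ∨ smul s t = 4 ∨ smul s t = 5) := by decide +kernel
    exact h a.s b.s
  inv_mem' {a} := by
    have h : ∀ s : Fin 24, (s = 0 ∨ s = 1 ∨ s = 4 ∨ s = 5) →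
        (sinv s = 0 ∨ sinv s = 1 ∨ sinv s = 4 ∨ sinv s = 5) := by decide +kernel
    exact h a.s

theorem mem_kerV {a : NH} : a ∈ kerV ↔ a.s = 0 ∨ a.s = 1 ∨ a.s = 4 ∨ a.s = 5 := Iff.rfl

open OddChar in
/-- The even triples inside the model. -/
def ofTriple (f : S3Cubed.K) : NH :=
  ⟨⟨(((f : Fin 3 → S3Cubed.S3) 0 0).val + 3 * ((f : Fin 3 → S3Cubed.S3) 1 0).val +
      9 * ((f : Fin 3 → S3Cubed.S3) 2 0).val) % 27, Nat.mod_lt _ (by norm_num)⟩,
    if Equiv.Perm.sign ((f : Fin 3 → S3Cubed.S3) 0) = 1 then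
      if Equiv.Perm.sign ((f : Fin 3 → S3Cubed.S3) 1) = 1 then 0 else 1
    else if Equiv.Perm.sign ((f : Fin 3 → S3Cubed.S3) 1) = 1 then 4 else 5⟩

set_option synthInstance.maxSize 2000 in
set_option synthInstance.maxHeartbeats 200000 in
theorem toPerm_ofTriple : ∀ f : OddChar.S3Cubed.K,
    trans (ofTriple f).v * sperm (ofTriple f).s = OddChar.S3Cubed.iota f := by decide +kernel

/-- The even triples as a subgroup of the model. -/
def tripleHom : OddChar.S3Cubed.K →* NH where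
  toFun := ofTriple
  map_one' := toPerm_injective (by
    rw [map_one]
    exact (toPerm_ofTriple 1).trans (by simp))
  map_mul' f g := toPerm_injective (by
    rw [map_mul]
    exact ((toPerm_ofTriple (f * g)).trans (by
      rw [Subgroup.coe_mul, map_mul, ← toPerm_ofTriple f, ← toPerm_ofTriple g]; rfl)).trans rfl)

theorem tripleHom_injective : Function.Injective tripleHom := fun f g h => by
  refine Subtype.ext (OddChar.S3Cubed.iota_injective ?_)
  rw [← toPerm_ofTriple f, ← toPerm_ofTriple g]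
  exact congrArg toPerm h

theorem card_nh_kerV : (Finset.univ.filter fun a : NH =>
    a.s = 0 ∨ a.s = 1 ∨ a.s = 4 ∨ a.s = 5).card = 108 := by decide +kernel

theorem tripleHom_range : tripleHom.range = kerV := by
  classical
  refine Subgroup.eq_of_le_of_card_ge ?_ ?_
  · rintro _ ⟨f, rfl⟩
    show (ofTriple f).s = 0 ∨ (ofTriple f).s = 1 ∨ (ofTriple f).s = 4 ∨ (ofTriple f).s = 5
    unfold ofTriple
    dsimp only
    split_ifs <;> decide
  · rw [← Nat.card_congr (MonoidHom.ofInjective tripleHom_injective).toEquiv,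
      Nat.card_eq_fintype_card, Nat.card_eq_fintype_card, OddChar.S3Cubed.card_K,
      Fintype.card_of_subtype (Finset.univ.filter fun a : NH =>
        a.s = 0 ∨ a.s = 1 ∨ a.s = 4 ∨ a.s = 5) (fun a => by simp [mem_kerV]), card_nh_kerV]

/-- The even triples are the subgroup over the four group. -/
noncomputable def tripleEquiv : OddChar.S3Cubed.K ≃* kerV :=
  (MonoidHom.ofInjective tripleHom_injective).trans (MulEquiv.subgroupCongr tripleHom_range)

end Cfsg.Agent.AltNine
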