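import Cfsg.Agent.AltNine.ModelChars
import Cfsg.Agent.OddChar.TISection
import Cfsg.Agent.OddChar.S3CubedTI
import Cfsg.Prelude.Def_Solvable
import Cfsg.Prelude.Def_TwoFusion

/-!
A subgroup isomorphic to the model which contains the centralisers of its translations: the
elements with a power in the translations form a TI section, and the induced class functions have
the tabulated inner products and class sums.
-/

set_option autoImplicit false

open Cfsg
open scoped ComplexConjugate

namespace Cfsg.Agent.AltNine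

variable {G : Type*} [Group G] {H : Subgroup G} (e : H ≃* NH)

/-- An element of the model inside `G`. -/
def emb : NH →* G := H.subtype.comp e.symm.toMonoidHom

theorem emb_mem (a : NH) : emb e a ∈ H := (e.symm a).2

theorem emb_injective : Function.Injective (emb e) := fun a b h =>
  e.symm.injective (Subtype.val_injective h)

theorem exists_emb {g : G} (hg : g ∈ H) : ∃ a : NH, emb e a = g :=
  ⟨e ⟨g, hg⟩, congrArg Subtype.val (e.symm_apply_apply ⟨g, hg⟩)⟩

theorem emb_apply (h : H) : emb e (e h) = (h : G) := congrArg Subtype.val (e.symm_apply_apply h)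

/-- The translations of the model. -/
def transSub : Subgroup NH where
  carrier := {a | a.s = 0}
  one_mem' := rfl
  mul_mem' {a b} ha hb := by
    show smul a.s b.s = 0
    rw [show a.s = 0 from ha, show b.s = 0 from hb, one_smul']
  inv_mem' {a} ha := by
    show sinv a.s = 0
    have h : sinv 0 = 0 := by decide +kernel
    rw [show a.s = 0 from ha, h]

theorem mem_transSub {a : NH} : a ∈ transSub ↔ a.s = 0 := Iff.rfl

theorem transSub_normal : transSub.Normal :=
  ⟨fun a ha c => by
    have := conj_s c.v c.s a.v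
    rw [show (⟨c.v, c.s⟩ : NH) = c from rfl,
      show (⟨a.v, 0⟩ : NH) = a from NH.ext' rfl ha.symm] at this
    exact this⟩

theorem pow_three_transSub (a : NH) (ha : a.s = 0) : a ^ 3 = 1 := by
  by_cases hv : a.v = 0
  · rw [show a = 1 from NH.ext' hv ha, one_pow]
  · rw [show a = ⟨a.v, 0⟩ from NH.ext' rfl ha]
    exact translation_order a.v hv

theorem card_transSub : Nat.card transSub = 27 := by
  haveI : DecidablePred (· ∈ transSub) := fun a => decidable_of_iff (a.s = 0) Iff.rfl
  rw [Nat.card_eq_fintype_card, Fintype.card_of_subtype (Finset.univ.filter fun a : NH => a.s = 0)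
    (fun a => by simp [mem_transSub])]
  decide +kernel

theorem card_NH : Nat.card NH = 648 := by
  rw [Nat.card_eq_fintype_card]
  decide +kernel

include e in
theorem card_H : Nat.card H = 648 := (Nat.card_congr e.toEquiv).trans card_NH

theorem pCore_eq : (Cfsg.pCore 3 H).map H.subtype = transSub.map (emb e) := by
  have hT : Cfsg.pCore 3 H = transSub.map e.symm.toMonoidHom := by
    refine le_antisymm (sSup_le fun N hN => ?_) (le_sSup ⟨?_, ?_⟩)
    · intro h hh
      refine ⟨e h, ?_, by simp⟩
      rw [SetLike.mem_coe, mem_transSub]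
      by_contra hs
      have key : ∀ y ∈ N, (e y) ^ 81 = 1 := by
        intro y hy
        obtain ⟨n, hn⟩ := hN.2 ⟨y, hy⟩
        have hn' : (e y) ^ 3 ^ n = 1 := by
          rw [← map_pow, show y ^ 3 ^ n = 1 by simpa using congrArg Subtype.val hn, map_one]
        have h648 : (e y) ^ 648 = 1 := by
          have := pow_card_eq_one' (x := e y)
          rwa [card_NH] at this
        have hg := pow_gcd_eq_one.mpr ⟨hn', h648⟩
        have hd : Nat.gcd (3 ^ n) 648 ∣ 81 := by
          obtain ⟨k, hk, hk'⟩ :=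
            (Nat.dvd_prime_pow Nat.prime_three).mp (Nat.gcd_dvd_left (3 ^ n) 648)
          rw [hk']
          have h6 : 3 ^ k ∣ 2 ^ 3 * 81 := hk' ▸ Nat.gcd_dvd_right (3 ^ n) 648
          exact (Nat.Coprime.pow k 3 (by norm_num : Nat.Coprime 3 2)).dvd_of_dvd_mul_left h6
        obtain ⟨c, hc⟩ := hd
        rw [hc, pow_mul, hg, one_pow]
      rcases not_pGroup (e h).v (e h).s hs with h1 | ⟨w, t, h2⟩
      · exact h1 (key h hh)
      · refine h2 ?_
        have hm : h * (e.symm ⟨w, t⟩ * h * (e.symm ⟨w, t⟩)⁻¹) ∈ N :=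
          mul_mem hh (hN.1.conj_mem _ hh _)
        have := key _ hm
        simpa using this
    · exact transSub_normal.map _ e.symm.surjective
    · intro x
      refine ⟨1, ?_⟩
      obtain ⟨x, a, ha, rfl⟩ := x
      refine Subtype.ext ?_
      show (e.symm a : H) ^ 3 ^ 1 = 1
      rw [pow_one, ← map_pow, pow_three_transSub a ha, map_one]
  rw [hT, Subgroup.map_map]
  rfl

/-- The standing hypothesis on the translations. -/
structure LocalData : Prop where
  cent : ∀ a : NH, a.s = 0 → a ≠ 1 → ∀ g : G, g * emb e a = emb e a * g → g ∈ H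
  closed : ∀ a : NH, a.s = 0 → ∀ g : G, g * emb e a * g⁻¹ ∈ H →
    ∃ b : NH, b.s = 0 ∧ g * emb e a * g⁻¹ = emb e b

/-- The elements with a non-trivial power in the translations. -/
def setA : Set G := {g | ∃ a : NH, InA a ∧ emb e a = g}

variable {e}

theorem LocalData.mem_of_conj [Fintype G] (hL : LocalData e) {g : G} {a b : NH} (ha : a.s = 0)
    (ha1 : a ≠ 1) (hb : b.s = 0) (hab : g * emb e a * g⁻¹ = emb e b) : g ∈ H := by
  classical
  have hb1 : b ≠ 1 := by
    rintro rfl
    rw [map_one, conj_eq_one_iff] at hab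
    exact ha1 (emb_injective e (hab.trans (map_one _).symm))
  have hcard : ∀ c : NH, c.s = 0 → c ≠ 1 →
      centSize c.v = (Finset.univ.filter fun x : G => x * emb e c = emb e c * x).card := by
    intro c hc hc1
    rw [centSize, show (⟨c.v, 0⟩ : NH) = c from NH.ext' rfl hc.symm]
    refine Finset.card_bij (fun x _ => emb e x) ?_ ?_ ?_
    · intro x hx
      simp only [Finset.mem_filter, Finset.mem_univ, true_and] at hx ⊢
      rw [← map_mul, hx, map_mul]
    · exact fun _ _ _ _ h => emb_injective e h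
    · intro y hy
      simp only [Finset.mem_filter, Finset.mem_univ, true_and] at hy ⊢
      obtain ⟨x, hx⟩ := exists_emb e (hL.cent c hc hc1 y hy)
      exact ⟨x, emb_injective e (by rw [map_mul, map_mul, hx, hy]), hx⟩
  have hsize : centSize a.v = centSize b.v := by
    rw [hcard a ha ha1, hcard b hb hb1]
    refine Finset.card_equiv (MulAut.conj g).toEquiv fun x => ?_
    simp only [Finset.mem_filter, Finset.mem_univ, true_and, MulEquiv.toEquiv_eq_coe,
      EquivLike.coe_coe, MulAut.conj_apply, ← hab]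
    constructor
    · intro h
      calc g * x * g⁻¹ * (g * emb e a * g⁻¹) = g * (x * emb e a) * g⁻¹ := by group
        _ = g * (emb e a * x) * g⁻¹ := by rw [h]
        _ = g * emb e a * g⁻¹ * (g * x * g⁻¹) := by group
    · intro h
      calc x * emb e a = g⁻¹ * (g * x * g⁻¹ * (g * emb e a * g⁻¹)) * g := by group
        _ = g⁻¹ * (g * emb e a * g⁻¹ * (g * x * g⁻¹)) * g := by rw [h]
        _ = emb e a * x := by group
  have hv : ∀ c : NH, c.s = 0 → c ≠ 1 → c.v ≠ 0 := fun c hc hc1 h => hc1 (NH.ext' h hc)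
  obtain ⟨w, t, hwt⟩ := conj_translation a.v (hv a ha ha1)
  obtain ⟨w', t', hwt'⟩ := conj_translation b.v (hv b hb hb1)
  rw [show (⟨a.v, 0⟩ : NH) = a from NH.ext' rfl ha.symm] at hwt
  rw [show (⟨b.v, 0⟩ : NH) = b from NH.ext' rfl hb.symm, ← hsize] at hwt'
  set c : NH := ⟨w', t'⟩ * (⟨w, t⟩)⁻¹ with hc
  have hcb : c * a * c⁻¹ = b := by
    rw [hc, ← hwt']
    generalize repOf (centSize a.v) = r at hwt ⊢
    rw [← hwt]
    group
  have hcomm : (emb e c)⁻¹ * g * emb e a = emb e a * ((emb e c)⁻¹ * g) := by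
    have hb' : g * emb e a * g⁻¹ = emb e c * emb e a * (emb e c)⁻¹ := by
      rw [hab, ← hcb, map_mul, map_mul, map_inv]
    calc (emb e c)⁻¹ * g * emb e a = (emb e c)⁻¹ * (g * emb e a * g⁻¹) * g := by group
      _ = (emb e c)⁻¹ * (emb e c * emb e a * (emb e c)⁻¹) * g := by rw [hb']
      _ = emb e a * ((emb e c)⁻¹ * g) := by group
  have := mul_mem (emb_mem e c) (hL.cent a ha ha1 _ hcomm)
  rwa [mul_inv_cancel_left] at this

theorem LocalData.mem_of_conj_setA [Fintype G] (hL : LocalData e) {g x : G} (hx : x ∈ setA e)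
    (hgx : g * x * g⁻¹ ∈ H) : g ∈ H := by
  obtain ⟨a, ha, rfl⟩ := hx
  obtain ⟨k, hk1, hks⟩ : ∃ k : ℕ, a ^ k ≠ 1 ∧ (a ^ k).s = 0 := by
    rcases ha with ⟨h1, h2⟩ | ⟨h1, h2⟩
    · exact ⟨4, by simpa [pow_succ] using h1, by simpa [pow_succ] using h2⟩
    · exact ⟨3, by simpa [pow_succ] using h1, by simpa [pow_succ] using h2⟩
  have hmem : g * emb e (a ^ k) * g⁻¹ ∈ H := by
    rw [map_pow, ← conj_pow]
    exact pow_mem hgx k
  obtain ⟨b, hb, hbe⟩ := hL.closed _ hks g hmem
  exact hL.mem_of_conj hks hk1 hb hbe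

theorem setA_subset : setA e ⊆ H := by
  rintro _ ⟨a, -, rfl⟩
  exact emb_mem e a

theorem LocalData.isTI [Fintype G] (hL : LocalData e) : OddChar.IsTISection H (setA e) where
  subset := setA_subset
  fuse _ _ ha h := hL.mem_of_conj_setA ha (setA_subset h)
  invert _ _ ha h := hL.mem_of_conj_setA ha (h ▸ inv_mem (setA_subset ha))

variable (e)

/-- A tabulated class function on `H`. -/
noncomputable def thetaG (j : Fin 9) (h : H) : ℂ := thetaFun j (e h)

theorem thetaG_virt (j : Fin 9) : IsGeneralizedCharacter H (thetaG e j) :=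
  OddChar.S3Cubed.virt_comp (thetaFun_virt j) e.toMonoidHom

theorem thetaG_supp (j : Fin 9) (h : H) (hne : thetaG e j h ≠ 0) : (h : G) ∈ setA e :=
  ⟨e h, theta_supp j _ _ fun h0 => hne (toC_eq_zero h0), emb_apply e h⟩

/-- Sums over `H` are sums over the model. -/
theorem sum_H [Fintype H] (F : NH → ℂ) : ∑ h : H, F (e h) = ∑ a : NH, F a :=
  Fintype.sum_equiv e.toEquiv _ _ fun _ => rfl

variable [Fintype G]

/-- The induced function. -/
noncomputable def Theta (j : Fin 9) : G → ℂ := indFun H (thetaG e j)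

theorem Theta_virt (j : Fin 9) : IsGeneralizedCharacter G (Theta e j) :=
  OddChar.S3Cubed.virt_indFun H (thetaG_virt e j)

variable {e}

theorem LocalData.classInner_Theta (hL : LocalData e) {i j : Fin 9} (hji : j.val ≤ i.val) :
    classInner (Theta e i) (Theta e j) = (gram i.val j.val : ℂ) := by
  haveI := Fintype.ofFinite H
  rw [Theta, Theta, hL.isTI.classInner_indFun_indFun
    (OddChar.virt_isClassFunction (thetaG_virt e i)) (OddChar.virt_isClassFunction (thetaG_virt e j))
    (thetaG_supp e i) (thetaG_supp e j), Chars.classInner_def, card_H e]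
  simp only [thetaG, thetaFun, conj_toC, ← map_mul]
  rw [sum_H e fun a => toC (thetaVal i a * thetaVal j a), ← map_sum, theta_gram i j hji,
    map_intCast]
  push_cast
  ring

theorem classInner_Theta_one (j : Fin 9) :
    classInner (Theta e j) (fun _ => 1) = (oneCoef j.val : ℂ) := by
  haveI := Fintype.ofFinite H
  rw [Theta, Chars.classInner_indFun H _ (fun _ _ => rfl), Chars.classInner_def, card_H e]
  simp only [thetaG, thetaFun, map_one, mul_one]
  rw [sum_H e fun a => toC (thetaVal j a), ← map_sum, theta_one j, map_intCast]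
  push_cast
  ring

theorem Theta_apply_one (j : Fin 9) : Theta e j 1 = 0 := by
  rw [Theta, Chars.indFun_apply_one, thetaG, map_one]
  have : thetaVal j 1 = 0 := by revert j; decide +kernel
  rw [thetaFun, this, map_zero, mul_zero]

theorem Theta_invol (j : Fin 9) {g : G} (hg : g * g = 1) : Theta e j g = 0 := by
  refine OddChar.indFun_eq_zero_of_forall (thetaG_supp e j) fun x hx => ?_
  obtain ⟨a, ha, hae⟩ := hx
  have haa : a * a = 1 := emb_injective e (by
    rw [map_mul, map_one, hae]
    calc x * g * x⁻¹ * (x * g * x⁻¹) = x * (g * g) * x⁻¹ := by group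
      _ = 1 := by rw [hg]; group)
  rcases ha with ⟨h1, -⟩ | ⟨h1, h2⟩
  · exact h1 (by rw [haa, one_mul, haa])
  · rw [haa, one_mul] at h1 h2
    have h3 := pow_three_transSub a h2
    rw [pow_succ, pow_two, haa, one_mul] at h3
    exact h1 h3

/-- Class sums of the induced functions. -/
theorem LocalData.class_sum (hL : LocalData e) (j : Fin 9) {a b : NH} {p q : ℕ} (haa : a * a = 1)
    (hbb : b * b = 1) (ha : ∀ u : NH, IsConj (emb e a) (emb e u) ↔ cls u = p)
    (hb : ∀ u : NH, IsConj (emb e b) (emb e u) ↔ cls u = q) :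
    ((OddChar.clOf (emb e a)).card : ℂ) *
        ∑ y ∈ OddChar.clOf (emb e b), Theta e j (emb e a * y) =
      (Nat.card G : ℂ) / 648 * toC (pairSum j p q) := by
  classical
  haveI := Fintype.ofFinite H
  set θ := thetaG e j with hθ
  -- conjugation invariance
  have hinv : ∀ y1 ∈ OddChar.clOf (emb e a),
      ∑ y ∈ OddChar.clOf (emb e b), Theta e j (y1 * y) =
        ∑ y ∈ OddChar.clOf (emb e b), Theta e j (emb e a * y) := by
    intro y1 hy1
    obtain ⟨c, rfl⟩ := isConj_iff.mp (OddChar.mem_clOf.mp hy1)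
    refine Finset.sum_equiv (MulAut.conj c⁻¹).toEquiv (fun y => ?_) fun y _ => ?_
    · simp only [OddChar.mem_clOf, MulEquiv.toEquiv_eq_coe, EquivLike.coe_coe, MulAut.conj_apply,
        inv_inv]
      constructor
      · exact fun h => h.trans (isConj_iff.mpr ⟨c⁻¹, by group⟩)
      · exact fun h => h.trans (isConj_iff.mpr ⟨c, by group⟩)
    · have := Chars.isClassFunction_indFun H θ (c * emb e a * c⁻¹ * y) c⁻¹
      simp only [MulEquiv.toEquiv_eq_coe, EquivLike.coe_coe, MulAut.conj_apply, inv_inv]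
      rw [Theta, ← this]
      congr 1
      group
  rw [← nsmul_eq_mul, ← Finset.sum_const, ← Finset.sum_congr rfl hinv]
  simp only [Theta, Chars.indFun_apply, card_H e]
  rw [Finset.sum_congr rfl fun y _ => (Finset.mul_sum _ _ _).symm, ← Finset.mul_sum,
    Finset.sum_congr rfl fun y _ => Finset.sum_comm, Finset.sum_comm]
  -- each conjugate gives the same sum
  have hconj : ∀ x : G, ∑ y1 ∈ OddChar.clOf (emb e a), ∑ y2 ∈ OddChar.clOf (emb e b),
      extendByZero H θ (x⁻¹ * (y1 * y2) * x) =
      ∑ y1 ∈ OddChar.clOf (emb e a), ∑ y2 ∈ OddChar.clOf (emb e b),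
        extendByZero H θ (y1 * y2) := by
    intro x
    have hcl : ∀ c y : G, y ∈ OddChar.clOf c ↔ (MulAut.conj x⁻¹).toEquiv y ∈ OddChar.clOf c := by
      intro c y
      simp only [OddChar.mem_clOf, MulEquiv.toEquiv_eq_coe, EquivLike.coe_coe, MulAut.conj_apply,
        inv_inv]
      constructor
      · exact fun h => h.trans (isConj_iff.mpr ⟨x⁻¹, by group⟩)
      · exact fun h => h.trans (isConj_iff.mpr ⟨x, by group⟩)
    refine Finset.sum_equiv _ (hcl _) fun y1 _ => Finset.sum_equiv _ (hcl _) fun y2 _ => ?_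
    simp only [MulEquiv.toEquiv_eq_coe, EquivLike.coe_coe, MulAut.conj_apply, inv_inv]
    congr 1
    group
  rw [Finset.sum_congr rfl fun x _ => hconj x, Finset.sum_const, Finset.card_univ, nsmul_eq_mul,
    ← Nat.card_eq_fintype_card, div_eq_mul_inv, mul_comm (Nat.card G : ℂ) _⁻¹, ← mul_assoc,
    Nat.cast_ofNat]
  congr 1
  -- only pairs inside `H` contribute
  set f : G → G → ℂ := fun y1 y2 => extendByZero H θ (y1 * y2) with hf
  have hin : ∀ y1 ∈ OddChar.clOf (emb e a), ∀ y2 ∈ OddChar.clOf (emb e b), f y1 y2 ≠ 0 →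
      y1 ∈ H ∧ y2 ∈ H := by
    intro y1 h1 y2 h2 hne
    have sq : ∀ c : NH, c * c = 1 → ∀ y, IsConj (emb e c) y → y * y = 1 := by
      intro c hc y hy
      obtain ⟨k, rfl⟩ := isConj_iff.mp hy
      calc k * emb e c * k⁻¹ * (k * emb e c * k⁻¹) = k * (emb e c * emb e c) * k⁻¹ := by group
        _ = 1 := by rw [← map_mul, hc, map_one, mul_one, mul_inv_cancel]
    have h11 := sq a haa y1 (OddChar.mem_clOf.mp h1)
    have h22 := sq b hbb y2 (OddChar.mem_clOf.mp h2)
    have hm : y1 * y2 ∈ H := by
      by_contra h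
      exact hne (Chars.extendByZero_of_not_mem H θ h)
    have hA : y1 * y2 ∈ setA e := thetaG_supp e j ⟨_, hm⟩ (by
      simpa [hf, Chars.extendByZero_of_mem H θ hm] using hne)
    have hy1 : y1 ∈ H := by
      refine hL.isTI.invert _ _ hA ?_
      rw [mul_inv_rev, inv_eq_of_mul_eq_one_right h11, inv_eq_of_mul_eq_one_right h22,
        ← mul_assoc y1 y1, h11, one_mul]
    exact ⟨hy1, by simpa using mul_mem (inv_mem hy1) hm⟩
  have himg : ∀ (c : NH) (r : ℕ), (∀ u : NH, IsConj (emb e c) (emb e u) ↔ cls u = r) →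
      (OddChar.clOf (emb e c)).filter (· ∈ H) =
        (Finset.univ.filter fun u : NH => cls u = r).map ⟨emb e, emb_injective e⟩ := by
    intro c r hr
    ext y
    simp only [Finset.mem_filter, OddChar.mem_clOf, Finset.mem_map, Finset.mem_univ, true_and,
      Function.Embedding.coeFn_mk]
    constructor
    · rintro ⟨h1, h2⟩
      obtain ⟨u, rfl⟩ := exists_emb e h2
      exact ⟨u, (hr u).mp h1, rfl⟩
    · rintro ⟨u, hu, rfl⟩
      exact ⟨(hr u).mpr hu, emb_mem e u⟩
  have e1 : ∑ y1 ∈ OddChar.clOf (emb e a), ∑ y2 ∈ OddChar.clOf (emb e b), f y1 y2 =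
      ∑ y1 ∈ (OddChar.clOf (emb e a)).filter (· ∈ H),
        ∑ y2 ∈ (OddChar.clOf (emb e b)).filter (· ∈ H), f y1 y2 := by
    rw [Finset.sum_filter]
    refine Finset.sum_congr rfl fun y1 h1 => ?_
    split_ifs with hy
    · rw [Finset.sum_filter]
      refine Finset.sum_congr rfl fun y2 h2 => ?_
      split_ifs with hy2
      · rfl
      · by_contra hne
        exact hy2 (hin y1 h1 y2 h2 hne).2
    · refine Finset.sum_eq_zero fun y2 h2 => ?_
      by_contra hne
      exact hy (hin y1 h1 y2 h2 hne).1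
  refine e1.trans ?_
  rw [himg a p ha, himg b q hb, Finset.sum_map, pairSum, map_sum]
  refine Finset.sum_congr rfl fun u _ => ?_
  rw [Finset.sum_map, map_sum]
  refine Finset.sum_congr rfl fun v _ => ?_
  simp only [hf, Function.Embedding.coeFn_mk, ← map_mul]
  rw [Chars.extendByZero_of_mem H θ (emb_mem e _), hθ, thetaG, thetaFun]
  exact congrArg (fun w => toC (thetaVal j w)) (e.apply_symm_apply (u * v))

end Cfsg.Agent.AltNine
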