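import Cfsg.Agent.AltNine.Atoms
import Cfsg.Agent.AltNine.Perm
import Cfsg.Agent.OddChar.S3CubedWhole

/-!
A group with a subgroup isomorphic to the model which contains the centralisers of its
translations, these being strongly closed, is that subgroup.
-/

set_option autoImplicit false

open Cfsg

namespace Cfsg.Agent.AltNine

variable {G : Type*} [Group G] [Fintype G] {H : Subgroup G} {e : H ≃* NH}

theorem mul_s (a b : NH) : (a * b).s = smul a.s b.s := rfl

theorem inv_s (a : NH) : (a⁻¹).s = sinv a.s := rfl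

theorem eq_one_or_translation {a : NH} (ha : a.s = 0) : a = 1 ∨ a.v ≠ 0 := by
  by_cases h : a.v = 0
  · exact Or.inl (NH.ext' h ha)
  · exact Or.inr h

/-- The normaliser of the translations. -/
theorem LocalData.normalizer_eq (hL : LocalData e) :
    Subgroup.normalizer ((transSub.map (emb e) : Subgroup G) : Set G) = H := by
  refine le_antisymm (fun g hg => ?_) (fun g hg => ?_)
  · have ht : emb e ⟨1, 0⟩ ∈ transSub.map (emb e) := ⟨⟨1, 0⟩, rfl, rfl⟩
    obtain ⟨b, hb, hbe⟩ := (Subgroup.mem_normalizer_iff.mp hg _).mp ht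
    exact hL.mem_of_conj (a := ⟨1, 0⟩) rfl (by decide +kernel) hb hbe.symm
  · refine Subgroup.mem_normalizer_fintype (S := ((transSub.map (emb e) : Subgroup G) : Set G)) ?_
    rintro _ ⟨a, ha, rfl⟩
    obtain ⟨c, rfl⟩ := exists_emb e hg
    exact ⟨c * a * c⁻¹, transSub_normal.conj_mem a ha c, by simp⟩

theorem LocalData.whole (hL : LocalData e) : H = ⊤ := by
  classical
  haveI := Fintype.ofFinite H
  obtain ⟨-, ψ, hne, hker⟩ := hL.exists_kernel
  have hψc := Chars.irr_isCharacter ψ
  let Mn : Subgroup G := Chars.charKer hψc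
  haveI hMn : Mn.Normal := Chars.charKer_normal hψc
  obtain ⟨hz2, -, -, -, hzc, hwc, -, -, -, -⟩ := special_elems
  -- the first involution lies in the kernel
  have hconjMn : ∀ c r : NH, emb e r ∈ Mn → emb e (c * r * c⁻¹) ∈ Mn := fun c r h => by
    rw [map_mul, map_mul, map_inv]; exact hMn.conj_mem _ h _
  have hz : emb e zN ∈ Mn := by
    rcases hker with h | h
    · exact h
    · obtain ⟨v, s, w, t, h6, h6', h2⟩ := two_of_six
      obtain ⟨c, hc⟩ := conj_six' _ h6
      obtain ⟨c', hc'⟩ := conj_six' _ h6'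
      obtain ⟨d, hd⟩ := conj_two' _ h2
      have hprod : emb e ((⟨v, s⟩ : NH) * ⟨w, t⟩) ∈ Mn := by
        rw [map_mul, ← hc, ← hc']
        exact mul_mem (hconjMn c wN h) (hconjMn c' wN h)
      have := hconjMn d⁻¹ _ hprod
      rw [← hd] at this
      simpa [mul_assoc] using this
  have hV : ∀ a : NH, IsV a.s → emb e a ∈ Mn := by
    intro a ha
    obtain ⟨f0, f1, f2, f3, hf⟩ := kerV_factor a.v a.s ha
    have hin : ∀ r : NH, cls r = 2 → emb e r ∈ Mn := fun r hr => by
      obtain ⟨c, hc⟩ := conj_two' r hr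
      exact hc ▸ hconjMn c zN hz
    rw [show a = (⟨a.v, a.s⟩ : NH) from rfl, ← hf, map_mul, map_mul, map_mul]
    exact mul_mem (mul_mem (mul_mem (hin _ f0) (hin _ f1)) (hin _ f2)) (hin _ f3)
  -- the kernel meets `H` in the even triples
  have hMV : ∀ a : NH, emb e a ∈ Mn → IsV a.s := by
    intro a ha
    by_contra hav
    obtain ⟨n, hn, hne', hnV⟩ : ∃ n : NH, emb e n ∈ Mn ∧ IsEven' n.s ∧ ¬ IsV n.s := by
      obtain ⟨w, t, h⟩ := reach_even a.v a.s hav
      have ha' : (⟨a.v, a.s⟩ : NH) = a := NH.ext' rfl rfl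
      rw [ha'] at h
      rcases h with ⟨h1, h2⟩ | h
      · obtain ⟨m, hm⟩ : ∃ m : NH, m = a * ((⟨w, t⟩ : NH) * a⁻¹ * (⟨w, t⟩)⁻¹) := ⟨_, rfl⟩
        rw [← hm] at h1 h2
        refine ⟨m, ?_, h2, fun hc => h1 hc⟩
        rw [hm, map_mul]
        exact mul_mem ha (hconjMn (⟨w, t⟩ : NH) a⁻¹ (by rw [map_inv]; exact inv_mem ha))
      · exact ⟨a, ha, h, hav⟩
    have heven : ∀ b : NH, IsEven' b.s → emb e b ∈ Mn := by
      intro b hb
      rcases even_split n.s hne' hnV b.s hb with h | h | h
      · exact hV b h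
      · have h' := mul_mem hn (hV (n⁻¹ * b) (by rw [mul_s, inv_s]; exact h))
        rwa [← map_mul, mul_inv_cancel_left] at h'
      · have h' := mul_mem (inv_mem hn) (hV (n * b) (by rw [mul_s]; exact h))
        rwa [← map_inv, ← map_mul, inv_mul_cancel_left] at h'
    apply hne
    have hodd : ∀ b : NH, ¬ IsEven' b.s → (ψ : G → ℂ) (emb e b) = (ψ : G → ℂ) (emb e wN) := by
      intro b hb
      have h1 : ¬ IsEven' (6 : Fin 24) := by decide +kernel
      have h2 : IsEven' (b * wN).s := (isEven_smul b.s wN.s).mpr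
        ⟨fun h => absurd h hb, fun h => absurd h h1⟩
      have h3 := Chars.apply_mul_of_mem_charKer hψc (emb e wN) (heven _ h2)
      obtain ⟨-, -, hw2, -⟩ := special_elems
      rwa [← map_mul, mul_assoc, hw2, mul_one] at h3
    obtain ⟨s1, s2⟩ := theta_even_sums
    rw [Theta, Chars.classInner_indFun H _ (Chars.isClassFunction_of_isCharacter hψc),
      Chars.classInner_def]
    have key : ∀ h : H, thetaG e 3 h * (starRingEnd ℂ) ((ψ : G → ℂ) h) =
        (fun b : NH => thetaFun 3 b * if IsEven' b.s then (starRingEnd ℂ) ((ψ : G → ℂ) 1)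
          else (starRingEnd ℂ) ((ψ : G → ℂ) (emb e wN))) (e h) := by
      intro h
      show thetaFun 3 (e h) * _ = _
      congr 1
      rw [← emb_apply e h]
      split_ifs with hev
      · exact congrArg _ (heven _ hev)
      · rw [hodd _ hev]
    rw [Finset.sum_congr rfl fun h _ => key h,
      sum_H e fun b : NH => thetaFun 3 b * if IsEven' b.s then (starRingEnd ℂ) ((ψ : G → ℂ) 1)
        else (starRingEnd ℂ) ((ψ : G → ℂ) (emb e wN))]
    simp only [mul_ite, Finset.sum_ite, ← Finset.sum_mul, thetaFun, ← map_sum, s1, s2, map_zero,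
      zero_mul, add_zero, mul_zero]
  -- inside the kernel
  have hTM : transSub.map (emb e) ≤ Mn := by
    rintro _ ⟨a, ha, rfl⟩
    exact hV a (Or.inl ha)
  let e' : H.subgroupOf Mn ≃* OddChar.S3Cubed.K :=
    ({ toFun := fun x => ⟨e ⟨((x : Mn) : G), x.2⟩, hMV _ (by rw [emb_apply]; exact (x : Mn).2)⟩
       invFun := fun a => ⟨⟨emb e a, hV a a.2⟩, emb_mem e a⟩
       left_inv := fun x => Subtype.ext (Subtype.ext (emb_apply e ⟨_, x.2⟩))
       right_inv := fun a => Subtype.ext (e.apply_symm_apply (a : NH))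
       map_mul' := fun x y => Subtype.ext (by
        show e _ = e _ * e _
        rw [← map_mul]; rfl) } : H.subgroupOf Mn ≃* kerV).trans tripleEquiv.symm
  set T : Subgroup Mn := (transSub.map (emb e)).subgroupOf Mn with hT
  have hN := hL.normalizer_eq
  have hwhole : H.subgroupOf Mn = ⊤ := by
    refine OddChar.S3Cubed.whole e' (T := T) ?_ ?_ ?_ ?_
    · intro x hx
      obtain ⟨a, -, hax⟩ := Subgroup.mem_subgroupOf.mp hx
      exact Subgroup.mem_subgroupOf.mpr (hax ▸ emb_mem e a)
    · rw [hT, Nat.card_congr (Subgroup.subgroupOfEquivOfLe hTM).toEquiv,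
        ← Nat.card_congr (Subgroup.equivMapOfInjective transSub _ (emb_injective e)).toEquiv,
        card_transSub]
    · ext g
      rw [Subgroup.mem_subgroupOf]
      conv_rhs => rw [← hN]
      rw [Subgroup.mem_normalizer_iff, Subgroup.mem_normalizer_iff]
      constructor
      · intro h x
        constructor
        · intro hx
          have := (h ⟨x, hTM hx⟩).mp (Subgroup.mem_subgroupOf.mpr hx)
          exact Subgroup.mem_subgroupOf.mp this
        · intro hx
          have hxM : x ∈ Mn := by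
            have := hMn.conj_mem _ (hTM hx) (g : G)⁻¹
            simpa [mul_assoc] using this
          exact Subgroup.mem_subgroupOf.mp ((h ⟨x, hxM⟩).mpr (Subgroup.mem_subgroupOf.mpr hx))
      · intro h x
        exact h (x : G)
    · intro t ht ht1 x hx
      obtain ⟨a, ha, hae⟩ := Subgroup.mem_subgroupOf.mp ht
      refine Subgroup.mem_subgroupOf.mpr (hL.cent a ha ?_ x ?_)
      · rintro rfl
        exact ht1 (Subtype.ext (by rw [← hae, map_one, Subgroup.coe_one]))
      · rw [hae]
        exact congrArg Subtype.val (Subgroup.mem_centralizer_singleton_iff.mp hx)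
  have hMH : Mn ≤ H := Subgroup.subgroupOf_eq_top.mp hwhole
  rw [eq_top_iff]
  intro g _
  obtain ⟨b, hbe⟩ : ∃ b : NH, emb e b = g * emb e ⟨1, 0⟩ * g⁻¹ :=
    exists_emb e (hMH (hMn.conj_mem _ (hTM ⟨⟨1, 0⟩, rfl, rfl⟩) g))
  refine hL.mem_of_conj (a := ⟨1, 0⟩) rfl (by decide +kernel) ?_ hbe.symm
  refine cube_kerV b.v b.s ?_ (hMV b (by rw [hbe]; exact hMn.conj_mem _ (hTM ⟨_, rfl, rfl⟩) g))
  apply emb_injective e
  rw [map_pow, map_one, hbe, conj_pow, ← map_pow, pow_three_transSub _ rfl, map_one, mul_one,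
    mul_inv_cancel]

end Cfsg.Agent.AltNine
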